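import Cfsg.Agent.Lib.Mas.Defs

/-! # Elementary abelian groups with three generators -/

set_option autoImplicit false

namespace Cfsg.Lib.Mas

open Subgroup Cfsg.Lib Cfsg.Lib.BG
open scoped Cfsg.Lib.Transfer

/-- `u` separates `b` from `a`, and `v` separates `c` from `a` and `b`. -/
theorem elem_three {G : Type*} [Group G] [Finite G] {p : ℕ} [Fact p.Prime] {H : Subgroup G} {a b c u v : G}
    (ha : a ∈ H) (hb : b ∈ H) (hc : c ∈ H) (pa : a ^ p = 1) (pb : b ^ p = 1) (pc : c ^ p = 1)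
    (ab : a * b = b * a) (ac : a * c = c * a) (bc : b * c = c * b) (a1 : a ≠ 1) (au : a * u = u * a) (bu : b * u ≠ u * b)
    (av : a * v = v * a) (bv : b * v = v * b) (cv : c * v ≠ v * c) : ∃ E, Elem p 3 E H :=
  have k : ∀ {x y : G}, x * y = y * x → zpowers x ≤ 𝐂[y] := fun h => zpowers_le.2 (mem_cent1.2 h)
  ⟨_, ((Elem.zpowers ha (orderOf_eq_prime pa a1)).sup_zpowers hb (fun _ m => mem_cent1.1 (k ab m)) pb
    fun m => bu (mem_cent1.1 (k au m))).sup_zpowers hc (fun _ m => mem_cent1.1 (sup_le (k ac) (k bc) m)) pc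
    fun m => cv (mem_cent1.1 (sup_le (k av) (k bv) m))⟩

end Cfsg.Lib.Mas
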