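import Cfsg.Agent.Lib.Mas.Defs
import Cfsg.Prelude.Def_Classical
import Cfsg.Agent.Lib.Transfer.Criteria
import Cfsg.Agent.S0243

/-! # Exclusion of `L₄(3)`

`Fx.c2` fails.  Let `t` be the image of `J` with `J² = -1`; `C(t)` contains the image of `SL₂(9)`, hence `y` of
order 5 and a dihedral group `S₀` of order 8 with centre `⟨c⟩` and `g` with `c * c^g` of odd order `≠ 1`.  So
`c ∉ Q = O₂(C(t))`, `S₀ ⊓ Q = 1`, `|Q| * 8 ≤ |G|₂ = 128`; but `y` acts faithfully on `Q` (`IsChP`), centralizes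
`t ∈ Q`, and `|Q| ≡ |C_Q(y)| (mod 5)` with `2 ≤ |C_Q(y)| < |Q| ≤ 16` is impossible.
All matrices are explicit over `ZMod 3`. -/

set_option autoImplicit false

namespace Cfsg.Lib.Mas

open Subgroup Cfsg.Lib Cfsg.Lib.BG Cfsg.Lib.Transfer Cfsg.Lib.Loc Cfsg.Lib.Core
open scoped MatrixGroups Cfsg.Lib.Transfer commutatorElement

namespace ExL

variable {H : Type*} [Group H] [Finite H]

theorem eight {a b : H} (a4 : a ^ 2 ^ 2 = 1) (a2 : a ^ 2 ^ 1 ≠ 1) (b2 : b ^ 2 = 1) (e : a * b * a = b) : 8 ∣ Nat.card H := by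
  have c := (Nat.card_zpowers a).trans (orderOf_eq_prime_pow a2 a4)
  have n : b ∉ zpowers a := fun m => a2 (by
    rw [mul_assoc, mem_cent1.1 (zpowers_le.2 (mem_cent1.2 rfl) m), ← mul_assoc, mul_eq_right] at e; simpa [sq] using e)
  have o := orderOf_eq_prime b2 fun e => n (e ▸ one_mem _)
  obtain ⟨k, q⟩ := (pgroup_sup (.of_card c) (.of_card ((Nat.card_zpowers b).trans (o.trans (pow_one 2).symm))) (zpowers_le.2
    (mem_normalizer_fintype (by
      rintro _ ⟨i, rfl⟩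
      rw [← conj_zpow, show b * a * b⁻¹ = a⁻¹ by rw [eq_inv_iff_mul_eq_one, mul_eq_one_comm, ← mul_assoc, ← mul_assoc, e, mul_inv_cancel]]
      exact zpow_mem (inv_mem (mem_zpowers a)) i)))).exists_card_eq
  have l := card_lt_of_lt (left_lt_sup.2 fun h => n (h (mem_zpowers b)))
  rw [c, q] at l
  exact (pow_dvd_pow 2 ((Nat.pow_lt_pow_iff_right one_lt_two).1 l)).trans (q ▸ card_subgroup_dvd_card _)

theorem not_ch (h : centralizer (pCore 2 H : Set H) ≤ pCore 2 H) (d : ¬ 2 ^ 8 ∣ Nat.card H) {t y r s c g w : H} (tc : ∀ x, x * t = t * x)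
    (t1 : t ≠ 1) (y5 : y ^ 5 = 1) (y1 : y ≠ 1) (rc : r * r = c) (c2 : c * c = 1) (s2 : s * s = 1) (rs : r * s * r = s)
    (cw : c * g * c = w * g) (w3 : w ^ 3 = 1) (w1 : w ≠ 1) : False := by
  have := Fact.mk Nat.prime_five
  have P := pCore_isPGroup 2 H
  have od : ∀ {x m}, x ∈ pCore 2 H → x ^ m = 1 → m.Coprime 2 → x = 1 := fun {x m} a b c =>
    let ⟨k, e⟩ := P ⟨x, a⟩; (pow_eq_one_iff_of_coprime (c.pow_right k)).1 ⟨b, congrArg Subtype.val e⟩
  let π := QuotientGroup.mk' (pCore 2 H)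
  have e := eight (a := π r) (b := π s) (by rw [← map_pow, sq 2, pow_mul, sq r, rc, sq, c2, map_one]) (fun e => ?_)
    (by rw [← map_pow, sq, s2, map_one]) (by rw [← map_mul, ← map_mul, rs])
  · obtain ⟨k, q⟩ := P.exists_card_eq
    have k4 : k ≤ 4 := by
      by_contra n
      exact d (card_eq_card_quotient_mul_card_subgroup (pCore 2 H) ▸ (mul_dvd_mul e (q ▸ pow_dvd_pow 2 (not_le.1 n)) : 8 * 2 ^ 5 ∣ _))
    have m := card_modEq_card_inf_centralizer (q := 5) (A := zpowers y) (T := pCore 2 H)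
      (.of_card ((Nat.card_zpowers y).trans ((orderOf_eq_prime y5 y1).trans (pow_one 5).symm))) (normalizer_eq_top (pCore 2 H) ▸ le_top)
    obtain ⟨j, q'⟩ := (P.to_le (inf_le_left : pCore 2 H ⊓ 𝐂(zpowers y) ≤ _)).exists_card_eq
    have l := card_lt_of_lt (inf_lt_left.2 fun l : pCore 2 H ≤ 𝐂(zpowers y) =>
      y1 (od (h fun x m => (l m y (mem_zpowers y)).symm) y5 (by decide)))
    have l' := card_lt_of_lt (bot_lt_iff_ne_bot.2 fun e : pCore 2 H ⊓ 𝐂(zpowers y) = ⊥ =>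
      t1 (mem_bot.1 (e.le ⟨h fun x _ => tc x, fun x _ => tc x⟩)))
    rw [q, q'] at m l
    rw [q', card_bot] at l'
    have := (Nat.pow_lt_pow_iff_right one_lt_two).1 l
    interval_cases k <;> interval_cases j <;> revert l' m <;> decide
  · replace e : π c = 1 := by rw [← e, ← rc, map_mul, pow_one, sq]
    have := congrArg π cw
    rw [map_mul, map_mul, map_mul, e, one_mul, mul_one, right_eq_mul] at this
    exact w1 (od ((QuotientGroup.eq_one_iff _).1 this) w3 (by decide))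

theorem psl_eq {X Y : SL(4, ZMod 3)} : (X : PSL(4, ZMod 3)) = Y ↔ X.1 = Y.1 ∨ X.1 = -Y.1 := by
  rw [eq_comm, QuotientGroup.eq, Matrix.SpecialLinearGroup.mem_center_iff]
  have k : ∀ r : ZMod 3, Matrix.scalar (Fin 4) r = (Y⁻¹ * X).1 ↔ X.1 = r • Y.1 := fun r => by
    have a : Y.1 * (Y⁻¹ * X).1 = X.1 := congrArg Subtype.val (mul_inv_cancel_left Y X)
    have b : (Y⁻¹).1 * Y.1 = 1 := congrArg Subtype.val (inv_mul_cancel Y)
    rw [Matrix.scalar_apply, ← Matrix.smul_one_eq_diagonal]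
    exact ⟨fun e => by rw [← a, ← e, mul_smul_comm, mul_one], fun e => by
      rw [Matrix.SpecialLinearGroup.coe_mul, e, mul_smul_comm, b]⟩
  simp only [k]
  exact ⟨fun ⟨r, a, b⟩ => ((by decide : ∀ r : ZMod 3, r ^ 4 = 1 → r = 1 ∨ r = -1) r a).imp (fun e => by rw [b, e, one_smul])
    fun e => by rw [b, e, neg_one_smul], fun e => e.elim (fun e => ⟨1, rfl, by rw [e, one_smul]⟩) fun e => ⟨-1, rfl, by rw [e, neg_one_smul]⟩⟩

/-- the matrices `J, y, r, s, c, g, w` -/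
def mt (i : Fin 7) : SL(4, ZMod 3) := ⟨![!![0, 2, 0, 0; 1, 0, 0, 0; 0, 0, 0, 2; 0, 0, 1, 0], !![0, 0, 0, 2; 0, 0, 1, 0; 0, 2, 1, 2; 1, 0, 1, 1],
  !![0, 0, 0, 2; 0, 0, 1, 0; 0, 2, 0, 2; 1, 0, 1, 0], !![0, 0, 1, 0; 0, 0, 0, 1; 2, 0, 0, 0; 0, 2, 0, 0],
  !![2, 0, 2, 0; 0, 2, 0, 2; 2, 0, 1, 0; 0, 2, 0, 1], !![0, 0, 1, 0; 0, 0, 0, 1; 2, 0, 0, 2; 0, 2, 1, 0],
  !![0, 1, 0, 1; 2, 0, 2, 0; 1, 0, 1, 2; 0, 1, 1, 1]] i, by revert i; decide +kernel⟩

end ExL

open ExL in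
theorem not_fx_l43 {F : Type} [Field F] [Fintype F] (hF : Fintype.card F = 3) : ¬ Fx PSL(4, F) := fun h => by
  have := Fact.mk Nat.prime_three
  replace h := h.of_equiv (Linear.congrPSL (Equiv.refl _) (ZMod.ringEquivOfPrime F Nat.prime_three hF).symm)
  have d := Agent.S0243.result (ZMod.card 3) 4 (by decide)
  have t1 : (mt 0 : PSL(4, ZMod 3)) ≠ (1 : SL(4, ZMod 3)) := mt psl_eq.1 (by decide +kernel)
  let x (i) : 𝐂[(mt 0 : PSL(4, ZMod 3))] := ⟨mt i, mem_cent1.2 (congrArg QuotientGroup.mk (by revert i; decide +kernel))⟩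
  refine not_ch (isChP_iff.1 (h.c2 (mt 0) (orderOf_eq_prime (psl_eq (X := mt 0 ^ 2) (Y := 1).2 (by decide +kernel)) t1)))
    (fun e => absurd (d ▸ mul_dvd_mul_left _ (mul_dvd_mul_left _ (e.trans (card_subgroup_dvd_card _))) :) (by decide +kernel)) (t := x 0) (y := x 1) (r := x 2) (s := x 3)
    (c := x 4) (g := x 5) (w := x 6) (fun a => Subtype.ext (mem_cent1.1 a.2)) ?_ ?_ ?_ ?_ ?_ ?_ ?_ ?_ ?_ ?_
  all_goals first
    | exact fun e => mt psl_eq.1 (by decide +kernel) (congrArg Subtype.val e)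
    | exact Subtype.ext (psl_eq.2 (by decide +kernel))

end Cfsg.Lib.Mas
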