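import Cfsg.Agent.Lib.Mas.ExH
import Cfsg.Agent.Lib.Calc.Suz

/-! # Exclusion of `Suz`

`Fx.r3` fails: a 3A-element `y` (centre of `⟨a, b, c, d⟩' = 3·A₆`, `C(y) = 3·U₄(3)`) centralizes an elementary
abelian group of order 8.  Explicit words, checked in the faithful action on 1782 points (`Calc.Suz.model`). -/

set_option autoImplicit false

namespace Cfsg.Lib.Mas

open Subgroup Cfsg.Lib Cfsg.Lib.BG Cfsg.Lib.Transfer Cfsg.Lib.Loc Cfsg.Lib.Core
open scoped MatrixGroups Cfsg.Lib.Transfer commutatorElement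

attribute [local instance] Calc.Suz.act in
open Calc Calc.Suz in
theorem not_fx_suz : ¬ Fx Spor.Suz := fun h => by
  have := model.finite
  have := Fact.mk Nat.prime_three
  let y : W := .pow (.mul (.mul (.mul (.mul (.l 2) (.l 3)) (.l 4)) (.l 3)) (.l 4)) 5
  have c : ∀ s t : W, net.baseOK 1782 iv low (.mul (.mul s t) (.inv (.mul t s))) = true → s.ev gam * t.ev gam = t.ev gam * s.ev gam :=
    fun s t => model.ev_eq (.mul s t) (.mul t s)
  have n : ∀ (s t : W) j, net.mapOK 1782 iv (.mul (.mul s t) (.inv (.mul t s))) 2 j = true → 2 ≠ j →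
      s.ev gam * t.ev gam ≠ t.ev gam * s.ev gam := fun s t j a b e => model.ev_ne_one _ _ _ a b (mul_inv_eq_one.2 e)
  have q : ∀ s : W, ∀ k, net.baseOK 1782 iv low (.pow s k) = true → s.ev gam ^ k = 1 := fun s k => model.ev_eq_one_of_base (.pow s k)
  obtain ⟨E, e⟩ := elem_three (p := 2) (H := 𝐂[y.ev gam]) (mem_cent1.2 (c (.l 1) y (by decide +kernel)))
    (mem_cent1.2 (c (.l 3) y (by decide +kernel))) (mem_cent1.2 (c (.l 6) y (by decide +kernel))) (q (.l 1) 2 (by decide +kernel))
    (q (.l 3) 2 (by decide +kernel)) (q (.l 6) 2 (by decide +kernel)) (c (.l 1) (.l 3) (by decide +kernel)) (c (.l 1) (.l 6) (by decide +kernel))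
    (c (.l 3) (.l 6) (by decide +kernel)) (model.ev_ne_one (.l 1) 2 3 (by decide +kernel) (by decide)) (c (.l 1) (.l 4) (by decide +kernel))
    (n (.l 3) (.l 4) 13 (by decide +kernel) (by decide)) (c (.l 1) (.l 7) (by decide +kernel)) (c (.l 3) (.l 7) (by decide +kernel))
    (n (.l 6) (.l 7) 3 (by decide +kernel) (by decide))
  exact absurd (e.card ▸ h.r3 E _ e.elem (orderOf_eq_prime (q y 3 (by decide +kernel))
    (model.ev_ne_one y 14 1579 (by decide +kernel) (by decide))) e.le) (by decide)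

end Cfsg.Lib.Mas
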