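import Cfsg.Agent.Lib.Mas.Defs
import Cfsg.Prelude.Def_Classical

/-! # Exclusion of `Uₘ(2)`, `m ≥ 5`

`Fx.km` fails: the permutation matrix of the transposition `(0 1)` lies in `SU` (characteristic 2) and centralizes
the group of the 27 diagonal matrices `diag(a, a, b, c, d, 1, …, 1)` with `a² b c d = 1`, which meets the centre
trivially (a scalar `λ` has `λ³ = 1`, and `λ⁵ = 1` if `m = 5`, `λ = 1` if `m ≥ 6`). -/

set_option autoImplicit false

namespace Cfsg.Lib.Mas

open Subgroup Cfsg.Lib Cfsg.Lib.BG Cfsg.Lib.Transfer Cfsg.Lib.Loc Cfsg.Lib.Core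
open scoped MatrixGroups Cfsg.Lib.Transfer commutatorElement

namespace ExU

open Matrix Equiv

variable {F : Type} [Field F] {m : ℕ}

/-- a permutation matrix -/
def pm (h : (2 : F) = 0) (σ : Perm (Fin m)) : SU m F 2 :=
  ⟨⟨σ.permMatrix F, by
    rw [det_permutation]
    rcases Int.units_eq_one_or (Perm.sign σ) with e | e <;> simp [e]
    linear_combination -h⟩, fun u v => by
    change hermForm _ _ _ (σ.permMatrix F *ᵥ u) (σ.permMatrix F *ᵥ v) = _
    rw [permMatrix_mulVec, permMatrix_mulVec]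
    exact Equiv.sum_comp σ fun i => u i * v i ^ 2⟩

/-- the diagonal entries -/
def en (v : Fin 3 → Fˣ) (i : Fin m) : Fˣ := ∏ k, v k ^ if i.1 < 2 ∨ i.1 = k + 2 then 1 else 0

theorem en_lt {v : Fin 3 → Fˣ} {i : Fin m} (h : i.1 < 2) : en v i = v 0 * v 1 * v 2 := by
  simp only [en, h, true_or, if_true, pow_one, Fin.prod_univ_three]
theorem en_eq {v : Fin 3 → Fˣ} {i : Fin m} {k : Fin 3} (h : i.1 = k + 2) : en v i = v k := by
  rw [en, Finset.prod_eq_single k (fun j _ n => by rw [if_neg (by have := Fin.val_ne_of_ne n; omega), pow_zero]) (by simp),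
    if_pos (.inr h), pow_one]

/-- the diagonal matrices -/
def dg (h : ∀ x : Fˣ, x ^ 3 = 1) : (Fin 3 → Fˣ) →* SU (m + 5) F 2 where
  toFun v := ⟨⟨diagonal fun i => en v i, by
    rw [det_diagonal, ← Units.coe_prod, Units.val_eq_one]
    unfold en
    rw [Finset.prod_comm]
    refine Finset.prod_eq_one fun k _ => (Finset.prod_pow_eq_pow_sum ..).trans (.trans (congrArg _ ?_) (h _))
    have : ∀ i : ℕ, ¬(i + 1 + 1 + 1 + 1 + 1 < 2 ∨ i + 1 + 1 + 1 + 1 + 1 = k + 2) := by omega
    simp only [Fin.sum_univ_succ, Fin.val_succ, Fin.val_zero, this, if_false, Finset.sum_const_zero]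
    fin_cases k <;> rfl⟩, fun u w => by
    change hermForm _ _ _ (diagonal _ *ᵥ u) (diagonal _ *ᵥ w) = _
    refine Finset.sum_congr rfl fun i _ => ?_
    have : (en v i : F) ^ 3 = 1 := congrArg Units.val (h (en v i))
    rw [mulVec_diagonal, mulVec_diagonal]
    linear_combination u i * w i ^ 2 * this⟩
  map_one' := Subtype.ext (Subtype.ext (by simp [en]))
  map_mul' v w := Subtype.ext (Subtype.ext (.trans (congrArg diagonal (funext fun i => by
    simp only [en, Pi.mul_apply, mul_pow, Finset.prod_mul_distrib, Units.val_mul])) (diagonal_mul_diagonal ..).symm))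

theorem dg_pm {h2 : (2 : F) = 0} {h : ∀ x : Fˣ, x ^ 3 = 1} {σ : Perm (Fin (m + 5))} {v : Fin 3 → Fˣ} :
    pm h2 σ * dg h v = dg h v * pm h2 σ ↔ ∀ i, en v (σ i) = en v i := by
  refine (Subtype.ext_iff.trans Subtype.ext_iff).trans ?_
  change σ.permMatrix F * diagonal _ = diagonal _ * σ.permMatrix F ↔ _
  refine ⟨fun e i => Units.ext (by simpa using congrFun₂ e i (σ i)), fun e => Matrix.ext fun i j => ?_⟩
  by_cases a : σ i = j <;> simp [← e i, a]

end ExU

open ExU in
theorem not_fx_um2 {F : Type} [Field F] [Fintype F] (hF : Fintype.card F = 4) {m : ℕ} (hm : 5 ≤ m) :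
    ¬ Fx (PSU m F 2) := fun h => by
  classical
  obtain ⟨m, rfl⟩ := Nat.exists_eq_add_of_le' hm
  have c : Nat.card Fˣ = 3 := by rw [Nat.card_units, Nat.card_eq_fintype_card, hF]
  have h3 : ∀ x : Fˣ, x ^ 3 = 1 := fun x => c ▸ pow_card_eq_one'
  have h2 : (2 : F) = 0 := by
    have := FiniteField.cast_card_eq_zero F
    rw [hF] at this
    exact pow_eq_zero_iff two_ne_zero |>.1 (by linear_combination this)
  let φ := (QuotientGroup.mk' (center (SU (m + 5) F 2))).comp (dg h3)
  have i : Function.Injective φ := (injective_iff_map_eq_one φ).2 fun v e => funext fun k => by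
    have k' := fun σ => dg_pm.1 (mem_center_iff.1 ((QuotientGroup.eq_one_iff _).1 e) (pm h2 σ))
    have a : ∀ k, v k = v 0 * v 1 * v 2 := fun k =>
      (en_eq (by rw [Equiv.swap_apply_left])).symm.trans ((k' (.swap 0 ⟨k + 2, by omega⟩) 0).trans (en_lt two_pos))
    rw [a k, (a 1).trans (a 0).symm, (a 2).trans (a 0).symm, ← pow_three', h3, Pi.one_apply]
  have := h.km φ.range (pm h2 (.swap (0 : Fin (m + 5)) 1)) ⟨inferInstance, ?_⟩ (orderOf_eq_prime ?_ fun e => ?_) ?_
  · rw [← Nat.card_congr (MonoidHom.ofInjective i).toEquiv, Nat.card_fun, c] at this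
    simp at this
  · rintro _ ⟨v, rfl⟩
    rw [← map_pow, show v ^ 3 = 1 from funext fun k => h3 _, map_one]
  · have : pm h2 (.swap (0 : Fin (m + 5)) 1) * pm h2 (.swap 0 1) = 1 := Subtype.ext (Subtype.ext
      ((Matrix.permMatrix_mul ..).symm.trans (by rw [Equiv.swap_mul_self]; exact Matrix.permMatrix_one)))
    rw [sq, ← QuotientGroup.mk_mul, this, QuotientGroup.mk_one]
  · have := congrArg (fun x : SU _ F 2 => x.1.1 0 1) (mem_center_iff.1 ((QuotientGroup.eq_one_iff _).1 e) (pm h2 (.swap 1 2)))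
    replace := (congrFun₂ (Matrix.permMatrix_mul (R := F) (.swap (0 : Fin (m + 5)) 1) (.swap 1 2)) 0 1).trans
      (this.trans (congrFun₂ (Matrix.permMatrix_mul ..) 0 1).symm)
    simp [Equiv.swap_apply_def, Fin.ext_iff, Nat.mod_eq_of_lt (show 2 < m + 5 by omega)] at this
  · rintro _ ⟨v, rfl⟩
    refine mem_cent1.2 (congrArg QuotientGroup.mk (dg_pm.2 fun i => ?_).symm)
    rw [Equiv.swap_apply_def]
    split_ifs with a b
    exacts [a ▸ (en_lt one_lt_two).trans (en_lt two_pos).symm, b ▸ (en_lt two_pos).trans (en_lt one_lt_two).symm, rfl]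

end Cfsg.Lib.Mas
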