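import Cfsg.Agent.Lib.Sig.KM2
import Cfsg.Agent.Lib.Mas.Defs

/-! # The Klinger-Mason argument with odd `p'`-cores, part 1

A copy of `Lib/Sig/KM` in which local characteristic `p` is weakened to `OL p G`. -/

set_option autoImplicit false
set_option linter.unusedSectionVars false

namespace Cfsg.Lib.Mas

open Subgroup Cfsg.Lib.BG Cfsg.Lib.Core Cfsg.Lib.Loc
open Cfsg.Lib.Sig (mem_zpowers_two sq_of_two ne_one_of_two eq_of_card_two_mul)
open scoped Cfsg.Lib.Transfer commutatorElement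

variable {G : Type*} [Group G] [Finite G] {p : ℕ} [hp : Fact p.Prime]
  {A B D E H P R V W X Y : Subgroup G} {s t u v x y : G}

theorem cop_odd (hP : Odd (Nat.card P)) (hX : IsPGroup 2 X) : (Nat.card P).Coprime (Nat.card X) := by
  obtain ⟨k, hk⟩ := hX.exists_card_eq
  rw [hk]
  exact (Nat.coprime_two_right.2 hP).pow_right _

theorem odd_pg (hp2 : p ≠ 2) (hP : IsPGroup p P) : Odd (Nat.card P) := by
  obtain ⟨k, hk⟩ := hP.exists_card_eq
  rw [hk]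
  exact (hp.out.odd_of_ne_two hp2).pow

theorem odd_le (hR : Odd (Nat.card R)) (h : P ≤ R) : Odd (Nat.card P) := hR.of_dvd_nat (card_dvd h)

/-- Thompson's dihedral lemma in `C(B)`. -/
theorem exists_big (hp2 : p ≠ 2) (hB : IsElementaryAbelian p B) (hR : OR p B R)
    (hA : IsElementaryAbelian 2 A) (hAB : A ≤ 𝐂(B)) {k : ℕ}
    (hk : 2 ^ (k + 1) ≤ Nat.card A) : ∃ s ∈ A, orderOf s = 2 ∧ ∃ B', IsElementaryAbelian p B' ∧
      B ≤ B' ∧ B' ≤ R ⊓ 𝐂[s] ∧ p ^ k * Nat.card B ≤ Nat.card B' := by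
  have pA := PGroup.elemAb_isPGroup hA
  have hAR : A ≤ 𝐍(R) := hAB.trans hR.norm
  obtain ⟨S, hS, nS⟩ := Syl.exists_inv (p := p) hAR (cop_odd hR.odd pA).symm (Or.inl (pgroup_sol pA))
  have hSB : S ≤ 𝐂(B) := hS.le.trans hR.le
  have hBR : B ≤ R := (le_inf (abelian_cent hB.1) (cent_symm hSB)).trans (hR.con S hS)
  have hBS : B ≤ S := (Loc.le_core hBR (hR.le.trans (cent_le_norm _)) (PGroup.elemAb_isPGroup hB)).trans
    (Loc.Syl.core_le hS)
  obtain ⟨V, h2, h3, h4, h5⟩ := Comp.exists_abelian_faithful hA (pgroup_sol hS.pgroup)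
    (p'_of_pgroup hS.pgroup hp2) nS
  have hVR : V ≤ S := h2.trans (Core.fittingOf_le _)
  have hab := abelian_sup h3 hB.1 (hVR.trans hSB)
  have h6 : A ⊓ 𝐂(V ⊔ B) = ⊥ := eq_bot_mono (disjoint_of_coprime (cop_odd hR.odd pA).symm) (le_inf inf_le_left
    ((le_inf (inf_le_left.trans hAB) ((inf_le_inf_left _ (cent_anti le_sup_left)).trans h5)).trans (hR.con S hS)))
  obtain ⟨C, E, e1, e2, e3, e4, e5⟩ := Comp.exists_elemAb_cent hp2 hA hab
    (hS.pgroup.to_le (sup_le hVR hBS)) (norm_sup h4 (norm_of_cent hAB)) hB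
    (le_inf le_sup_right (cent_symm hAB)) (k := k) (by
      rw [h6, card_bot, mul_one]; exact (Nat.pow_le_pow_right two_pos (Nat.le_succ k)).trans hk)
  obtain ⟨s, hs, hs1⟩ := exists_ne_one (A := C) fun h => by
    rw [← e4, h, card_bot, pow_succ] at hk
    have : 0 < 2 ^ k := by positivity
    omega
  refine ⟨s, e1 hs, PGroup.elemAb_orderOf hA (e1 hs) hs1, E ⊔ B, PGroup.elemAb_sup e3 hB
    (abelian_cent' hab (e2.trans inf_le_left) le_sup_right), le_sup_right,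
    sup_le (le_inf (e2.trans (inf_le_left.trans (sup_le (hVR.trans hS.le) hBR)))
      (e2.trans (inf_le_right.trans (cent_le_cent1 hs))))
      (le_inf hBR (le_cent1_iff.2 (hAB (e1 hs)))), e5 ▸ card_le_of_le le_sup_left⟩

/-- A maximal pair. -/
structure MP (p : ℕ) (B : Subgroup G) (t : G) : Prop where
  odd : p ≠ 2
  loc : OL p G
  el : IsElementaryAbelian p B
  ord : orderOf t = 2
  cent : B ≤ 𝐂[t]
  big : p ^ 2 ≤ Nat.card B
  max : ∀ (B' : Subgroup G) (s : G), IsElementaryAbelian p B' → orderOf s = 2 → B' ≤ 𝐂[s] →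
    Nat.card B' ≤ Nat.card B

namespace MP

theorem pg (h : MP p B t) : IsPGroup p B := PGroup.elemAb_isPGroup h.el

theorem od (h : MP p B t) : Odd (Nat.card B) := odd_pg h.odd h.pg

theorem cop (h : MP p B t) (hX : IsPGroup 2 X) : (Nat.card B).Coprime (Nat.card X) :=
  coprime_pgroups h.pg hX h.odd

theorem bound (h : MP p B t) {j : ℕ} (hH : H ≤ B) (h1 : H ≠ ⊥)
    (hc : Nat.card B ≤ p ^ j * Nat.card H) (hA : IsElementaryAbelian 2 A) (hAH : A ≤ 𝐂(H)) :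
    Nat.card A < 2 ^ (j + 2) := by
  by_contra! hk
  obtain ⟨R, hR⟩ := h.loc H (PGroup.elemAb_of_le h.el hH) h1
  obtain ⟨s, -, h2, B', h3, -, h4, h5⟩ := exists_big h.odd (PGroup.elemAb_of_le h.el hH) hR hA hAH hk
  have h6 := h5.trans ((h.max B' s h3 h2 (h4.trans inf_le_right)).trans hc)
  have h7 : 0 < p ^ j * Nat.card H := Nat.mul_pos (pow_pos hp.out.pos _) Nat.card_pos
  have := hp.out.two_le
  rw [pow_succ', mul_assoc] at h6
  nlinarith

theorem hyp_ne_bot (h : MP p B t) (hH : H ≤ B) (hi : H.relIndex B ∣ p) :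
    H ≠ ⊥ ∧ Nat.card B ≤ p ^ 1 * Nat.card H := by
  have h1 := BG.card_mul_relIndex hH
  have h2 := Nat.le_of_dvd hp.out.pos hi
  refine ⟨fun e => ?_, by rw [← h1, pow_one, mul_comm]; exact Nat.mul_le_mul_right _ h2⟩
  have h3 := h.big
  rw [← h1, e, card_bot, one_mul, pow_two] at h3
  rw [e] at h2
  have := hp.out.two_le
  nlinarith

theorem r1 (h : MP p B t) (hA : IsElementaryAbelian 2 A) (hAB : A ≤ 𝐂(B)) : Nat.card A < 4 :=
  h.bound (j := 0) le_rfl (h.hyp_ne_bot le_rfl (by simp)).1 (by simp) hA hAB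

/-- `B`-invariant elementary abelian `2`-subgroups of `C(t)` lie in `⟨t⟩`. -/
theorem r3 (h : MP p B t) (hV : IsElementaryAbelian 2 V) (hn : B ≤ 𝐍(V)) (hc : V ≤ 𝐂[t]) :
    V ≤ zpowers t := by
  have hV' := PGroup.elemAb_sup_zpowers hV (le_cent1_iff.1 hc) (sq_of_two h.ord)
  have hn' : B ≤ 𝐍(V ⊔ zpowers t) := norm_sup hn (norm_of_cent (cent_zpowers t ▸ h.cent))
  refine le_sup_left.trans (Coprime.le_of_forall_hyperplane h.el hn'
    (h.cop (PGroup.elemAb_isPGroup hV')) fun H hH hi => ?_)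
  obtain ⟨h1, h2⟩ := h.hyp_ne_bot hH hi
  have hU := PGroup.elemAb_of_le hV' (inf_le_left (b := 𝐂(H)))
  have h3 := h.bound hH h1 h2 hU inf_le_right
  have hU₀ := PGroup.elemAb_of_le hU (inf_le_left (b := 𝐂(B)))
  have h4 := h.r1 hU₀ inf_le_right
  have h5 := Transfer.card_modEq_card_inf_centralizer h.pg
    (norm_inf hn' (norm_cent (abelian_norm h.el.1 hH)))
  have ht : zpowers t ≤ (V ⊔ zpowers t) ⊓ 𝐂(H) ⊓ 𝐂(B) := le_inf (le_inf le_sup_right
    (zpowers_le.2 (le_cent1_iff.1 (hH.trans h.cent)))) (zpowers_le.2 (le_cent1_iff.1 h.cent))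
  have h6 := card_le_of_le ht
  have h7 := card_le_of_le (inf_le_left (a := (V ⊔ zpowers t) ⊓ 𝐂(H)) (b := 𝐂(B)))
  refine (eq_of_le_of_card_le (ht.trans inf_le_left) ?_).ge
  rw [Nat.card_zpowers, h.ord] at h6 ⊢
  obtain ⟨a, ha⟩ := PGroup.elemAb_card hU
  obtain ⟨b, hb⟩ := PGroup.elemAb_card hU₀
  rw [ha] at h3 h5 h7 ⊢
  rw [hb] at h4 h5 h6 h7
  have ha3 : a < 3 := (Nat.pow_lt_pow_iff_right one_lt_two).1 h3
  have hb2 : b < 2 := (Nat.pow_lt_pow_iff_right one_lt_two).1 h4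
  interval_cases a <;> interval_cases b <;> simp at h6 h7 ⊢
  exact h.odd ((Nat.prime_dvd_prime_iff_eq hp.out Nat.prime_two).1
    ((Nat.modEq_iff_dvd' (by norm_num)).1 h5.symm))

theorem ab (h : MP p B t) (hY : IsMulCommutative Y) (h2 : IsPGroup 2 Y) (hn : B ≤ 𝐍(Y))
    (hc : Y ≤ 𝐂[t]) (hP : Odd (Nat.card P)) (hPY : P ≤ 𝐍(Y)) (hPt : P ≤ 𝐂[t]) : P ≤ 𝐂(Y) := by
  refine coprime_abelian_cent_Ohm1 hPY ?_ h2 hY ((cent_zpowers t ▸ hPt).trans (cent_anti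
    (h.r3 (PGroup.isElementaryAbelian_omegaOne hY) (norm_Ohm1 hn 2)
      ((PGroup.omegaOne_le _).trans hc))))
  exact Nat.coprime_two_right.2 hP

end MP

/-- A critical subgroup of `O₂(C(t))`. -/
structure Cr (t : G) (D : Subgroup G) : Prop where
  two : IsPGroup 2 D
  le : D ≤ 𝐂[t]
  norm : 𝐂[t] ≤ 𝐍(D)
  mem : t ∈ D
  sq : ∀ x ∈ D, x ^ 2 ∈ 𝐂(D)
  der : ⁅D, D⁆ ≤ zpowers t
  faith : ∀ P : Subgroup G, Odd (Nat.card P) → P ≤ 𝐂[t] → P ≤ 𝐂(D) → P = ⊥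

theorem MP.exists_cr (h : MP p B t) (h2 : C2 G) : ∃ D, Cr t D := by
  have hz : IsPGroup 2 (zpowers t) := PGroup.elemAb_isPGroup (PGroup.elemAb_zpowers (sq_of_two h.ord))
  have hch : IsChP 2 𝐂[t] := h2 t h.ord
  have hQ := core_pgroup 2 𝐂[t]
  obtain ⟨D, h3, h4, h5, h6, h7⟩ := PGroup.exists_critical_of_subgroup hQ
  have hD : D ≤ 𝐂[t] := h3.trans (core_le _ _)
  have hn : 𝐂[t] ≤ 𝐍(D) := (le_normalizer_core 2 _).trans h4
  have hc : ⁅D, D⁆ ≤ 𝐙(D) := (commutator_mono le_rfl h3).trans h6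
  refine ⟨D, hQ.to_le h3, hD, hn, h7 ⟨Loc.le_core (zpowers_le.2 (self_mem_cent1 t))
    (cent_zpowers t ▸ cent_le_norm _) hz (mem_zpowers t), le_cent1_iff.1 hD⟩, h5,
    le_trans (comm_le_iff.2 fun a ha b hb => ?_) (h.r3 (PGroup.isElementaryAbelian_omegaOne
      (abelian_center D)) (norm_Ohm1 (norm_center (h.cent.trans hn)) 2)
      ((PGroup.omegaOne_le _).trans (inf_le_left.trans hD))), fun P hP hPt hPD => ?_⟩
  · have e1 := hc (comm_mem_comm ha hb)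
    refine PGroup.mem_omegaOne e1 ?_
    have e2 := e1.2 a ha
    have e3 := h5 a ha b hb
    calc (a * b * a⁻¹ * b⁻¹) ^ 2 = (a * (a * b * a⁻¹ * b⁻¹)) * b * a⁻¹ * b⁻¹ := by
          rw [e2, pow_two]; group
      _ = a ^ 2 * b * (a⁻¹ * b⁻¹ * b * a⁻¹) * b⁻¹ := by rw [pow_two]; group
      _ = 1 := by rw [← e3, pow_two]; group
  · have hcop := cop_odd hP hQ
    exact eq_bot_mono (disjoint_of_coprime hcop) (le_inf le_rfl (hch.le_core hPt
      (coprime_nil_cent_stab (pgroup_nil hQ) (hPt.trans (le_normalizer_core 2 _)) hcop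
        (((inf_le_inf_left _ (cent_anti (le_inf h3 (cent_symm hPD)))).trans h7).trans
          (cent_symm hPD)))))

theorem Cr.conj (h : Cr t D) (ht : orderOf t = 2) (hx : x ∈ D) (hy : y ∈ D) :
    x * y = y * x ∨ x * y = t * (y * x) := by
  refine ((mem_zpowers_two ht).1 (h.der (comm_mem_comm hx hy))).imp (fun e => ?_) fun e => ?_
  · rwa [mul_inv_eq_one, mul_inv_eq_iff_eq_mul] at e
  · rw [← e]; group

/-- If `C_X(s) ≤ C(x)` then `x` or `s x` centralizes `X`. -/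
theorem Cr.cent_or (h : Cr t D) (ht : orderOf t = 2) (hX : X ≤ D) (hs : s ∈ D) (hx : x ∈ D)
    (hc : X ⊓ 𝐂[s] ≤ 𝐂[x]) : x ∈ 𝐂(X) ∨ s * x ∈ 𝐂(X) := by
  have t2 : t * t = 1 := pow_two t ▸ sq_of_two ht
  have hcm : ∀ y ∈ D, y * t = t * y := fun y hy => mem_cent1.1 (h.le hy)
  refine or_iff_not_imp_left.2 fun hn v hv => ?_
  obtain ⟨w, hw, hw'⟩ : ∃ w ∈ X, w * x ≠ x * w := by
    by_contra! e; exact hn e
  have e1 := (h.conj ht (hX hw) hx).resolve_left hw'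
  have e2 := (h.conj ht (hX hw) hs).resolve_left fun e => hw' (mem_cent1.1 (hc ⟨hw, mem_cent1.2 e⟩))
  rcases h.conj ht (hX hv) hs with e | e
  · rw [← mul_assoc, e, mul_assoc, mem_cent1.1 (hc ⟨hv, mem_cent1.2 e⟩), mul_assoc]
  · have e3 : v * w * x = x * (v * w) := mem_cent1.1 (hc ⟨mul_mem hv hw, mem_cent1.2 (by
      rw [mul_assoc, e2, ← mul_assoc v t, hcm v (hX hv), mul_assoc t, ← mul_assoc v, e,
        mul_assoc t, ← mul_assoc t t, t2, one_mul, mul_assoc])⟩)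
    have e4 : v * x = t * (x * v) := by
      rw [mul_assoc, e1, ← mul_assoc v t, hcm v (hX hv), mul_assoc t, ← mul_assoc v,
        ← mul_assoc x, ← mul_assoc t, mul_left_inj] at e3
      rw [← e3, ← mul_assoc t t, t2, one_mul]
    rw [← mul_assoc, e, mul_assoc t, mul_assoc s, e4, ← mul_assoc s t, hcm s hs, mul_assoc t s,
      ← mul_assoc t t, t2, one_mul, mul_assoc]

/-- A nontrivial `B`-invariant subgroup `Y = [Y, A]` of `D` contains a quaternion pair. -/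
theorem MP.exists_pair (h : MP p B t) (hD : Cr t D) (hY : Y ≤ D) (hn : B ≤ 𝐍(Y)) (hA : A ≤ B)
    (he : ⁅Y, A⁆ = Y) (h1 : Y ≠ ⊥) :
    ∃ x ∈ Y, ∃ y ∈ Y, x ^ 2 = t ∧ y ^ 2 = t ∧ x * y = t * (y * x) := by
  have ht := h.ord
  have t2 : t * t = 1 := pow_two t ▸ sq_of_two ht
  have hcm : ∀ y ∈ D, y * t = t * y := fun y hy => mem_cent1.1 (hD.le hy)
  have hBD := h.cent.trans hD.norm
  have hZ : B ≤ 𝐂(𝐙(D)) := h.ab (abelian_center D) (hD.two.to_le inf_le_left) (norm_center hBD)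
    (inf_le_left.trans hD.le) h.od (norm_center hBD) h.cent
  have hsq : ∀ a ∈ D, ∀ b ∈ D, ∃ c ∈ zpowers t, (a * b) ^ 2 = c * (a ^ 2 * b ^ 2) := by
    intro a ha b hb
    rcases hD.conj ht hb ha with e | e
    · exact ⟨1, one_mem _, by rw [one_mul, (show Commute a b from e.symm).mul_pow]⟩
    · refine ⟨t, mem_zpowers t, ?_⟩
      calc (a * b) ^ 2 = a * (b * a) * b := by rw [pow_two]; group
        _ = _ := by rw [e, ← mul_assoc a t, hcm a ha, pow_two, pow_two]; group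
  let S : Subgroup G :=
    { carrier := {x | x ∈ D ∧ x ^ 2 ∈ zpowers t}
      one_mem' := ⟨one_mem _, by simp⟩
      mul_mem' := fun {a b} ha hb => ⟨mul_mem ha.1 hb.1, by
        obtain ⟨c, hc, e⟩ := hsq a ha.1 b hb.1
        rw [e]; exact mul_mem hc (mul_mem ha.2 hb.2)⟩
      inv_mem' := fun {a} ha => ⟨inv_mem ha.1, by rw [inv_pow]; exact inv_mem ha.2⟩ }
  have hS : Y ≤ S := he.ge.trans (comm_le_iff.2 fun y hy a ha => by
    have h2 : a * y⁻¹ * a⁻¹ ∈ D := conj_mem_of_norm (hBD (hA ha)) (inv_mem (hY hy))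
    rw [show y * a * y⁻¹ * a⁻¹ = y * (a * y⁻¹ * a⁻¹) by group]
    refine ⟨mul_mem (hY hy) h2, ?_⟩
    obtain ⟨c, hc, e⟩ := hsq y (hY hy) _ h2
    have h3 := hZ (hA ha) _ ⟨pow_mem (hY hy) 2, hD.sq y (hY hy)⟩
    rw [e, conj_pow, inv_pow, show y ^ 2 * (a * (y ^ 2)⁻¹ * a⁻¹) = y ^ 2 * a * (y ^ 2)⁻¹ * a⁻¹ by group,
      h3]
    simpa using hc)
  have hnc : ¬ Y ≤ 𝐂(A) := fun e => h1 (he ▸ comm_eq_bot_iff.2 e)
  have htA : zpowers t ≤ 𝐂(A) := zpowers_le.2 (le_cent1_iff.1 (hA.trans h.cent))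
  by_contra! hcon
  set T := ⨆ x : {x : G // x ∈ Y ∧ x ^ 2 = t}, zpowers x.1 with hT
  have hTY : T ≤ Y := iSup_le fun x => zpowers_le.2 x.2.1
  have hmem : ∀ x ∈ Y, x ^ 2 = t → x ∈ T := fun x h2 h3 =>
    le_iSup (fun x : {x : G // x ∈ Y ∧ x ^ 2 = t} => zpowers x.1) ⟨x, h2, h3⟩ (mem_zpowers x)
  have hTa : IsMulCommutative T := abelian_iff.2 (iSup_le fun x => cent_symm (iSup_le fun y =>
    zpowers_le.2 (cent_zpowers x.1 ▸ mem_cent1.2
      ((hD.conj ht (hY y.2.1) (hY x.2.1)).resolve_right (hcon _ y.2.1 _ x.2.1 y.2.2 x.2.2)))))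
  have hTn : B ≤ 𝐍(T) := le_norm_iff.2 fun b hb => by
    have : T ≤ T.comap (MulAut.conj b).toMonoidHom := iSup_le fun x => zpowers_le.2
      (hmem (b * x * b⁻¹) (conj_mem_of_norm (hn hb) x.2.1) (by
        rw [conj_pow, x.2.2, mem_cent1.1 (h.cent hb), mul_inv_cancel_right]))
    exact fun x hx => this hx
  have hTB : T ≤ 𝐂(A) := cent_symm (hA.trans (h.ab hTa (hD.two.to_le (hTY.trans hY)) hTn
    (hTY.trans (hY.trans hD.le)) h.od hTn h.cent))
  by_cases hx : ∃ x ∈ Y, x ^ 2 = t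
  · obtain ⟨x, hx, hx2⟩ := hx
    have h2 : zpowers x ≤ 𝐂(A) := zpowers_le.2 (hTB (hmem x hx hx2))
    have h3 : ⁅⁅A, Y⁆, zpowers x⁆ = ⊥ := commutator_commutator_eq_bot_of_rotate
      (comm_eq_bot_iff.2 (((comm_le_der hY (zpowers_le.2 (hY hx))).trans hD.der).trans htA))
      (by rw [comm_eq_bot_iff.2 h2, commutator_bot_left])
    rw [commutator_comm A, he, comm_eq_bot_iff, cent_zpowers] at h3
    refine hnc (le_trans (fun y hy => ?_) hTB)
    rcases (mem_zpowers_two ht).1 (hS hy).2 with e | e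
    · refine (mul_mem_cancel_left (hmem x hx hx2)).1 (hmem _ (mul_mem hx hy) ?_)
      rw [(show Commute x y from (mem_cent1.1 (h3 hy)).symm).mul_pow, e, hx2, mul_one]
    · exact hmem y hy e
  · exact hnc ((h.r3 (PGroup.elemAb_two_iff.2 fun y hy => ((mem_zpowers_two ht).1
      (hS hy).2).resolve_right fun e => hx ⟨y, hy, e⟩) hn (hY.trans hD.le)).trans htA)

end Cfsg.Lib.Mas
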