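import Cfsg.Agent.Lib.Mas.KM

/-! # The Klinger-Mason argument with odd `p'`-cores, part 2 (a copy of `Lib/Sig/KM2`) -/

set_option autoImplicit false
set_option linter.unusedSectionVars false

namespace Cfsg.Lib.Mas

open Subgroup Cfsg.Lib.BG Cfsg.Lib.Core Cfsg.Lib.Loc
open Cfsg.Lib.Sig (mem_zpowers_two sq_of_two ne_one_of_two eq_of_card_two_mul)
open scoped Cfsg.Lib.Transfer commutatorElement

variable {G : Type*} [Group G] [Finite G] {p : ℕ} [hp : Fact p.Prime]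
  {A B B' B₀ D D' E F H K P R V W X Y : Subgroup G} {s t u v x y : G}

theorem MP.exists_eight (h : MP p B t) (hD : Cr t D) (h3 : p ^ 3 ≤ Nat.card B) :
    ∃ B₀ ≤ B, B₀ ≠ ⊥ ∧ Nat.card B ≤ p ^ 2 * Nat.card B₀ ∧ ∃ E ≤ D ⊓ 𝐂(B₀),
      IsElementaryAbelian 2 E ∧ Nat.card E = 8 ∧ t ∈ E ∧ E ⊓ 𝐂(D ⊓ 𝐂(B₀)) ≤ zpowers t := by
  have hBD := h.cent.trans hD.norm
  have hcop := h.cop hD.two
  have hyp : ∀ X : Subgroup G, ¬ D ≤ X → ∃ H ≤ B, H.relIndex B ∣ p ∧ ¬ D ⊓ 𝐂(H) ≤ X := by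
    intro X hX
    by_contra! e
    exact hX (Coprime.le_of_forall_hyperplane h.el hBD hcop e)
  obtain ⟨H₁, a1, a2, a3⟩ := hyp 𝐂(B) fun e =>
    (h.hyp_ne_bot le_rfl (by simp)).1 (hD.faith B h.od h.cent (cent_symm e))
  obtain ⟨b, hb, hb1⟩ := exists_ne_one (h.hyp_ne_bot a1 a2).1
  have hbB : zpowers b ≤ B := zpowers_le.2 (a1 hb)
  obtain ⟨H₂, b1, b2, b3⟩ := hyp 𝐂(zpowers b) fun e => ne_bot_of_mem (mem_zpowers b) hb1
    (hD.faith _ (odd_le h.od hbB) (hbB.trans h.cent) (cent_symm e))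
  have hn : ∀ H ≤ B, B ≤ 𝐍(D ⊓ 𝐂(H)) := fun H hH =>
    norm_inf hBD (norm_cent (abelian_norm h.el.1 hH))
  have key : ∀ H ≤ B, ∀ A ≤ B, ¬ D ⊓ 𝐂(H) ≤ 𝐂(A) → ⁅D ⊓ 𝐂(H), A⁆ ≤ D ⊓ 𝐂(H) ∧
      ∃ x ∈ ⁅D ⊓ 𝐂(H), A⁆, ∃ y ∈ ⁅D ⊓ 𝐂(H), A⁆, x ^ 2 = t ∧ y ^ 2 = t ∧ x * y = t * (y * x) := by
    intro H hH A hA hne
    have := comm_le_left (hA.trans (hn H hH))
    exact ⟨this, h.exists_pair hD (this.trans inf_le_left)
      (norm_comm (hn H hH) (abelian_norm h.el.1 hA)) hA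
      (coprime_commGid (hA.trans (hn H hH)) (coprime_mono hcop hA inf_le_left))
      fun e => hne (comm_eq_bot_iff.1 e)⟩
  obtain ⟨c1, x₁, hx₁, y₁, hy₁, c2, c3, c4⟩ := key H₁ a1 B le_rfl a3
  obtain ⟨d1, x₂, hx₂, y₂, hy₂, d2, d3, d4⟩ := key H₂ b1 _ hbB b3
  have hc : ⁅⁅D ⊓ 𝐂(H₂), zpowers b⁆, D ⊓ 𝐂(H₁)⁆ = ⊥ := commutator_commutator_eq_bot_of_rotate
    (by rw [comm_eq_bot_iff'.2 (inf_le_right.trans (cent_anti (zpowers_le.2 hb))),
      commutator_bot_left])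
    (comm_eq_bot_iff'.2 (hbB.trans (h.cent.trans ((cent_zpowers t).ge.trans
      (cent_anti ((comm_le_der inf_le_left inf_le_left).trans hD.der))))))
  have hc' := le_cent_iff.1 (comm_eq_bot_iff'.1 hc)
  have hi : (H₁ ⊓ H₂).relIndex B ≤ p ^ 2 := relIndex_inf_le.trans (by
    rw [pow_two]; exact Nat.mul_le_mul (Nat.le_of_dvd hp.out.pos a2) (Nat.le_of_dvd hp.out.pos b2))
  have hi' : Nat.card B ≤ p ^ 2 * Nat.card ↥(H₁ ⊓ H₂) := by
    rw [← BG.card_mul_relIndex (inf_le_left.trans a1 : H₁ ⊓ H₂ ≤ B), mul_comm]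
    exact Nat.mul_le_mul_right _ hi
  have l1 : D ⊓ 𝐂(H₁) ≤ D ⊓ 𝐂(H₁ ⊓ H₂) := inf_le_inf_left _ (cent_anti inf_le_left)
  have l2 : D ⊓ 𝐂(H₂) ≤ D ⊓ 𝐂(H₁ ⊓ H₂) := inf_le_inf_left _ (cent_anti inf_le_right)
  refine ⟨H₁ ⊓ H₂, inf_le_left.trans a1, fun e => ?_, hi', Sig.exists_eight h.ord
    (inf_le_left.trans hD.le) ⟨hD.mem, le_cent1_iff.1 (inf_le_left.trans (a1.trans h.cent))⟩
    (l1 (c1 hx₁)) (l1 (c1 hy₁)) (l2 (d1 hx₂)) (l2 (d1 hy₂)) c2 c3 c4 d2 d3 d4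
    (hc' _ (c1 hx₁) _ hx₂) (hc' _ (c1 hx₁) _ hy₂) (hc' _ (c1 hy₁) _ hx₂) (hc' _ (c1 hy₁) _ hy₂)⟩
  rw [e, card_bot, mul_one] at hi'
  exact absurd (h3.trans hi') (not_le.2 (Nat.pow_lt_pow_right hp.out.one_lt (by norm_num)))

/-- The involution `t` acts trivially on `[D, B₀]` modulo its centre. -/
theorem MP.comm_le_center (h : MP p B s) (hD : Cr s D) (hB₀ : B₀ ≤ B) (ht : orderOf t = 2)
    (hF : F ≤ 𝐂[s] ⊓ 𝐂(B₀)) (htF : t ∈ ⁅F, F⁆) (hW : ⁅D ⊓ 𝐂[t], F⁆ ≤ zpowers s) :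
    ⁅⁅D, B₀⁆, zpowers t⁆ ≤ 𝐙(⁅D, B₀⁆) := by
  have t2 : t * t = 1 := pow_two t ▸ sq_of_two ht
  have hBD := h.cent.trans hD.norm
  set D' := ⁅D, B₀⁆ with hD'
  have h1 : D' ≤ D := comm_le_left (hB₀.trans hBD)
  have hn : 𝐂[s] ⊓ 𝐂(B₀) ≤ 𝐍(D') := norm_comm (inf_le_left.trans hD.norm)
    (inf_le_right.trans (cent_le_norm _))
  have hT : zpowers t ≤ 𝐂[s] ⊓ 𝐂(B₀) := zpowers_le.2 (comm_le_of_le hF hF htF)
  have hBn : B ≤ 𝐍(D') := norm_comm hBD (abelian_norm h.el.1 hB₀)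
  have hsc : ∀ X ≤ 𝐂[s], ∀ Y ≤ D, ∀ Y' ≤ D, ⁅⁅Y, Y'⁆, X⁆ = ⊥ := fun X hX Y hY Y' hY' =>
    comm_eq_bot_iff'.2 (hX.trans ((cent_zpowers s).ge.trans
      (cent_anti ((comm_le_der hY hY').trans hD.der))))
  have hY : D ⊓ 𝐂(B₀) ≤ 𝐂(D') := comm_eq_bot_iff'.1 (by
    rw [hD', commutator_comm D]
    exact commutator_commutator_eq_bot_of_rotate
      (hsc _ (hB₀.trans h.cent) _ le_rfl _ inf_le_left)
      (by rw [comm_eq_bot_iff.2 inf_le_right, commutator_bot_left]))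
  have hZ : B ≤ 𝐂(𝐙(D')) := h.ab (abelian_center _) (hD.two.to_le (inf_le_left.trans h1))
    (norm_center hBn) (inf_le_left.trans (h1.trans hD.le)) h.od (norm_center hBn) h.cent
  have hmem : ∀ x ∈ D', x * t * x⁻¹ * t⁻¹ ∈ D' := fun x hx =>
    comm_le_left (hT.trans hn) (comm_mem_comm hx (mem_zpowers t))
  let C : Subgroup G :=
    { carrier := {x | x ∈ D' ∧ x * t * x⁻¹ * t⁻¹ ∈ 𝐂(D')}
      one_mem' := ⟨one_mem _, by simp⟩
      mul_mem' := fun {a b} ha hb => ⟨mul_mem ha.1 hb.1, by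
        rw [show a * b * t * (a * b)⁻¹ * t⁻¹ =
          a * (b * t * b⁻¹ * t⁻¹) * a⁻¹ * (a * t * a⁻¹ * t⁻¹) by group]
        exact mul_mem (conj_mem_of_norm (norm_cent (le_norm D') ha.1) hb.2) ha.2⟩
      inv_mem' := fun {a} ha => ⟨inv_mem ha.1, by
        rw [show a⁻¹ * t * a⁻¹⁻¹ * t⁻¹ = a⁻¹ * (a * t * a⁻¹ * t⁻¹)⁻¹ * a by group]
        exact conj_mem_of_norm' (norm_cent (le_norm D') ha.1) (inv_mem ha.2)⟩ }
  have hC1 : C ≤ D' := fun x hx => hx.1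
  have hC2 : ⁅C, zpowers t⁆ ≤ 𝐙(D') := comm_le_iff.2 fun x hx u hu => by
    rcases (mem_zpowers_two ht).1 hu with rfl | rfl
    · simp
    · exact ⟨hmem x hx.1, hx.2⟩
  have hC3 : B₀ ≤ 𝐍(C) := le_norm_iff.2 fun b hb x hx => ⟨conj_mem_of_norm (hBn (hB₀ hb)) hx.1, by
    have e : t = b * t * b⁻¹ := by
      rw [(hT (mem_zpowers t)).2 b hb, mul_inv_cancel_right]
    rw [e, show b * x * b⁻¹ * (b * t * b⁻¹) * (b * x * b⁻¹)⁻¹ * (b * t * b⁻¹)⁻¹ =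
      b * (x * t * x⁻¹ * t⁻¹) * b⁻¹ by group]
    exact conj_mem_of_norm (norm_cent hBn (hB₀ hb)) hx.2⟩
  have hC4 : C ≤ D' ⊓ 𝐂[t] ⊔ 𝐙(D') := by
    rw [← coprime_cent_prod hC3 (coprime_mono (h.cop hD.two) hB₀ (hC1.trans h1))
      (Or.inl (pgroup_sol (h.pg.to_le hB₀)))]
    refine sup_le_sup (le_inf ((comm_le_left hC3).trans hC1) ?_)
      (le_inf (inf_le_left.trans hC1) ((inf_le_inf_right _ (hC1.trans h1)).trans hY))
    rw [← cent_zpowers, ← comm_eq_bot_iff, commutator_comm C]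
    exact commutator_commutator_eq_bot_of_rotate
      (comm_eq_bot_iff'.2 ((hB₀.trans hZ).trans (cent_anti hC2)))
      (by rw [comm_eq_bot_iff.2 (hT.trans inf_le_right), commutator_bot_left])
  have hC5 : ⁅D', zpowers t⁆ ≤ C := comm_le_iff.2 fun v hv u hu => by
    rcases (mem_zpowers_two ht).1 hu with rfl | rfl
    · simp
    · refine ⟨hmem v hv, ?_⟩
      have e : v * u * v⁻¹ * u⁻¹ * u * (v * u * v⁻¹ * u⁻¹)⁻¹ * u⁻¹ = (v * u * v⁻¹ * u⁻¹) ^ 2 := by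
        rw [inv_eq_of_mul_eq_one_right t2, pow_two]
        calc _ = v * u * v⁻¹ * u * (u * u⁻¹) * v * u⁻¹ * v⁻¹ * u := by group
          _ = _ := by rw [inv_eq_of_mul_eq_one_right t2, t2]; group
      rw [e]
      exact cent_anti h1 (hD.sq _ (h1 (hmem v hv)))
  have hU : D' ⊓ 𝐂(D' ⊓ 𝐂[t]) ≤ C := fun x hx => ⟨hx.1, by
    have : ⁅⁅zpowers t, D' ⊓ 𝐂(D' ⊓ 𝐂[t])⁆, D'⁆ = ⊥ := commutator_commutator_eq_bot_of_rotate
      (hsc _ (hT.trans inf_le_left) _ (inf_le_left.trans h1) _ h1)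
      (comm_eq_bot_iff.2 ((hC5.trans hC4).trans (sup_le (cent_symm inf_le_right)
        (inf_le_right.trans (cent_anti inf_le_left)))))
    rw [commutator_comm (zpowers t)] at this
    exact comm_eq_bot_iff.1 this (comm_mem_comm hx (mem_zpowers t))⟩
  have hFn := hF.trans hn
  have hW' : ⁅D' ⊓ 𝐂[t], F⁆ ≤ 𝐙(D') := le_inf
    ((commutator_mono inf_le_left le_rfl).trans (comm_le_left hFn))
    (((commutator_mono (inf_le_inf_right _ h1) le_rfl).trans hW).trans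
      (zpowers_le.2 (le_cent1_iff.1 (h1.trans hD.le))))
  have hU' : ⁅D', F⁆ ≤ D' ⊓ 𝐂(D' ⊓ 𝐂[t]) := le_inf (comm_le_left hFn) (by
    rw [← comm_eq_bot_iff, commutator_comm D']
    exact commutator_commutator_eq_bot_of_rotate
      (hsc _ (hF.trans inf_le_left) _ h1 _ (inf_le_left.trans h1))
      (comm_eq_bot_iff.2 (hW'.trans inf_le_right)))
  have hFF : ⁅⁅D', F⁆, F⁆ ≤ 𝐙(D') := comm_le_iff.2 fun x hx f hf => by
    obtain ⟨w, hw, z, hz, rfl⟩ := (mem_sup_right_norm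
      (inf_le_left.trans (norm_center (le_norm D')))).1 (hC4 (hU (hU' hx)))
    rw [show w * z * f * (w * z)⁻¹ * f⁻¹ =
      w * (z * (f * z⁻¹ * f⁻¹)) * w⁻¹ * (w * f * w⁻¹ * f⁻¹) by group]
    exact mul_mem (conj_mem_of_norm (norm_center (le_norm D') hw.1)
      (mul_mem hz (conj_mem_of_norm (norm_center hFn hf) (inv_mem hz)))) (hW' (comm_mem_comm hw hf))
  rw [commutator_comm]
  exact (commutator_mono (zpowers_le.2 htF) le_rfl).trans (three_subgroups (norm_center hFn)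
    (norm_center hFn) (norm_center (le_norm D')) (by rwa [commutator_comm F D']) hFF)

theorem MP.false (h : MP p B t) (h2 : C2 G) (h3 : p ^ 3 ≤ Nat.card B) :
    False := by
  obtain ⟨D, hD⟩ := h.exists_cr h2
  obtain ⟨B₀, a1, a2, a3, E, a4, a5, a6, a7, a8⟩ := h.exists_eight hD h3
  obtain ⟨R, hO⟩ := h.loc B₀ (PGroup.elemAb_of_le h.el a1) a2
  obtain ⟨s, hsE, hs, B', b1, b2, b3, b4⟩ := exists_big h.odd (PGroup.elemAb_of_le h.el a1) hO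
    a5 (a4.trans inf_le_right) (k := 2) a6.ge
  have h' : MP p B' s := ⟨h.odd, h.loc, b1, hs, b3.trans inf_le_right,
    h.big.trans (a3.trans b4), fun B'' u e1 e2 e3 => (h.max B'' u e1 e2 e3).trans (a3.trans b4)⟩
  have hR := hO.odd
  have hRc : R ≤ 𝐂(B₀) := hO.le
  have hcR : ∀ X Y P : Subgroup G, IsPGroup 2 X → Y ≤ X ⊓ 𝐂(B₀) → P ≤ R → P ≤ 𝐍(X) → P ≤ 𝐂(Y) :=
    fun X Y P hX hY hP hPX => comm_eq_bot_iff.1 (eq_bot_mono
      (disjoint_of_coprime (cop_odd hR hX)) (le_inf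
        ((commutator_mono hP (hY.trans inf_le_right)).trans (comm_le_left hO.norm))
        ((commutator_mono le_rfl (hY.trans inf_le_left)).trans (comm_le_right hPX))))
  have hB'R : B' ≤ R := b3.trans inf_le_left
  have hst : s ∉ zpowers t := fun e => by
    obtain rfl := ((mem_zpowers_two h.ord).1 e).resolve_left (ne_one_of_two hs)
    have := h'.r1 a5 (cent_symm (hcR D E B' hD.two a4 hB'R (h'.cent.trans hD.norm)))
    omega
  have htE : t ∈ 𝐂[s] := mem_cent1.2 (PGroup.elemAb_comm a5 a7 hsE)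
  have hB't : ¬ B' ≤ 𝐂[t] := fun e => hst (by
    have := h'.r3 (PGroup.elemAb_zpowers (sq_of_two h.ord)) (norm_of_cent (cent_zpowers t ▸ e))
      (zpowers_le.2 htE) (mem_zpowers t)
    rw [((mem_zpowers_two hs).1 this).resolve_left (ne_one_of_two h.ord)]
    exact mem_zpowers s)
  obtain ⟨D', hD'⟩ := h'.exists_cr h2
  have htB₀ : t ∈ 𝐂(B₀) := (a4 a7).2
  have htD' : t ∉ D' := fun e => hB't (cent_zpowers t ▸ hcR D' _ B' hD'.two
    (zpowers_le.2 ⟨e, htB₀⟩) hB'R (h'.cent.trans hD'.norm))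
  have hZD : B ≤ 𝐍(omegaOne 2 𝐙(D)) := norm_Ohm1 (norm_center (h.cent.trans hD.norm)) 2
  have h0 : ∀ y ∈ D', y ∈ D → y ∈ 𝐂(D) → y = 1 := fun y e1 e2 e3 => by
    by_contra e4
    obtain ⟨k, k1, k2⟩ := PGroup.exists_pow_not_mem_pow_mem (M := ⊥) (p := 2) (x := y)
      (by obtain ⟨m, hm⟩ := hD.two ⟨y, e2⟩; exact ⟨m, congrArg Subtype.val hm⟩) e4
    have := h.r3 (PGroup.isElementaryAbelian_omegaOne (abelian_center D)) hZD
      ((PGroup.omegaOne_le _).trans (inf_le_left.trans hD.le))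
      (PGroup.mem_omegaOne (pow_mem (show y ∈ 𝐙(D) from ⟨e2, e3⟩) (2 ^ k)) k2)
    exact htD' (((mem_zpowers_two h.ord).1 this).resolve_left k1 ▸ pow_mem e1 _)
  have hI : D' ⊓ D ≤ zpowers s := fun x hx => by
    rcases hD.cent_or h.ord le_rfl (a4 hsE).1 hx.2 (fun v hv => mem_cent1.2
      ((hD.conj h.ord hv.1 hx.2).resolve_right fun e => htD' (by
        rw [show t = v * x * v⁻¹ * x⁻¹ by rw [e]; group]
        exact mul_mem (conj_mem_of_norm (hD'.norm hv.2) hx.1) (inv_mem hx.1)))) with e | e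
    · rw [h0 x hx.1 hx.2 e]; exact one_mem _
    · rw [eq_inv_of_mul_eq_one_right
        (h0 _ (mul_mem hD'.mem hx.1) (mul_mem (a4 hsE).1 hx.2) e)]
      exact inv_mem (mem_zpowers s)
  have hF : D ⊓ 𝐂(B₀) ⊓ 𝐂[s] ≤ 𝐂[s] ⊓ 𝐂(B₀) := le_inf inf_le_right (inf_le_left.trans inf_le_right)
  have htF : t ∈ ⁅D ⊓ 𝐂(B₀) ⊓ 𝐂[s], D ⊓ 𝐂(B₀) ⊓ 𝐂[s]⁆ := by
    obtain ⟨u, huE, hu⟩ := SetLike.not_le_iff_exists.1 (show ¬ E ≤ zpowers t ⊔ zpowers s from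
      fun e => by
        have := card_le_of_le e
        rw [PGroup.card_sup_zpowers (p := 2) (cent_le_norm _ (cent_zpowers t ▸ mem_cent1_symm htE))
          hst (sq_of_two hs ▸ one_mem _), Nat.card_zpowers, h.ord] at this
        omega)
    obtain ⟨v, hv, hv'⟩ := SetLike.not_le_iff_exists.1
      (show ¬ D ⊓ 𝐂(B₀) ⊓ 𝐂[s] ≤ 𝐂[u] from fun e => hu (by
        rcases hD.cent_or h.ord inf_le_left (a4 hsE).1 (a4 huE).1 e with e | e
        · exact mem_sup_left (a8 ⟨huE, e⟩)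
        · exact (mul_mem_cancel_left (mem_sup_right (mem_zpowers s))).1
            (mem_sup_left (a8 ⟨mul_mem hsE huE, e⟩))))
    have e := (hD.conj h.ord hv.1.1 (a4 huE).1).resolve_left fun e => hv' (mem_cent1.2 e)
    rw [show t = v * u * v⁻¹ * u⁻¹ by rw [e]; group]
    exact comm_mem_comm hv ⟨a4 huE, mem_cent1.2 (PGroup.elemAb_comm a5 huE hsE)⟩
  have key := h'.comm_le_center hD' b2 h.ord hF htF (le_trans (le_inf
    ((commutator_mono inf_le_left (inf_le_right.trans hD'.norm)).trans (comm_le_left le_rfl))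
    ((commutator_mono (inf_le_right.trans hD.norm) (inf_le_left.trans inf_le_left)).trans
      (comm_le_right le_rfl))) hI)
  have hn : 𝐂[s] ⊓ 𝐂(B₀) ≤ 𝐍(⁅D', B₀⁆) := norm_comm (inf_le_left.trans hD'.norm)
    (inf_le_right.trans (cent_le_norm _))
  have hT : zpowers t ≤ 𝐂[s] ⊓ 𝐂(B₀) := zpowers_le.2 ⟨htE, htB₀⟩
  have hB' : B' ≤ 𝐂[s] ⊓ 𝐂(B₀) := le_inf h'.cent (hB'R.trans hRc)
  have hP : ⁅B', zpowers t⁆ ≤ 𝐂[s] ⊓ 𝐂(B₀) := comm_le_of_le hB' hT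
  have hPR : ⁅B', zpowers t⁆ ≤ R := (commutator_mono hB'R (hT.trans inf_le_right)).trans
    (comm_le_left hO.norm)
  have h1 : ⁅D', B₀⁆ ≤ D' := comm_le_left (b2.trans (h'.cent.trans hD'.norm))
  have hZ2 : IsPGroup 2 ↥𝐙(⁅D', B₀⁆) := hD'.two.to_le (inf_le_left.trans h1)
  have hP1 : ⁅B', zpowers t⁆ ≤ 𝐂(⁅D', B₀⁆) := stable_factor_cent (N := 𝐙(⁅D', B₀⁆))
    (by
      rw [commutator_comm]
      exact three_subgroups (norm_center (hB'.trans hn)) (norm_center (hT.trans hn))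
        (norm_center (le_norm _))
        (((commutator_mono (by rwa [commutator_comm]) le_rfl)).trans
          (comm_le_left (norm_center (hB'.trans hn))))
        ((commutator_mono (comm_le_left (hB'.trans hn)) le_rfl).trans key))
    (h'.ab (abelian_center _) hZ2 (norm_center (hB'.trans hn))
      (inf_le_left.trans (h1.trans hD'.le)) (odd_le hR hPR) (norm_center (hP.trans hn))
      (hP.trans inf_le_left))
    (cop_odd (odd_le hR hPR) hZ2)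
  have hP2 := hcR D' _ _ hD'.two le_rfl hPR ((hP.trans inf_le_left).trans hD'.norm)
  refine hB't (cent_zpowers t ▸ comm_eq_bot_iff.1
    (hD'.faith _ (odd_le hR hPR) (hP.trans inf_le_left) ?_))
  rw [← coprime_cent_prod (b2.trans (h'.cent.trans hD'.norm))
    (coprime_mono (h'.cop hD'.two) b2 le_rfl) (Or.inr (pgroup_sol hD'.two))]
  exact le_cent_sup hP1 hP2

/-- **Klinger-Mason.** -/
theorem klinger_mason (hp2 : p ≠ 2) (hL : OL p G)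
    (h2 : C2 G) {T : Subgroup G} (hT : IsPGroup 2 T) (h1 : T ≠ ⊥)
    (hA : IsElementaryAbelian p A) (hAT : A ≤ 𝐍(T)) : Nat.card A ≤ p ^ 2 := by
  by_contra! hc
  have h3 : p ^ 3 ≤ Nat.card A := by
    obtain ⟨k, hk⟩ := PGroup.elemAb_card hA
    rw [hk] at hc ⊢
    exact Nat.pow_le_pow_right hp.out.pos ((Nat.pow_lt_pow_iff_right hp.out.one_lt).1 hc)
  have hV := PGroup.isElementaryAbelian_omegaOne (p := 2) (abelian_center T)
  have hVn : A ≤ 𝐍(omegaOne 2 𝐙(T)) := norm_Ohm1 (norm_center hAT) 2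
  obtain ⟨H, a1, a2, a3⟩ : ∃ H ≤ A, H.relIndex A ∣ p ∧ ¬ omegaOne 2 𝐙(T) ⊓ 𝐂(H) ≤ ⊥ := by
    by_contra! e
    exact PGroup.omegaOne_ne_bot (hT.to_le inf_le_left) (center_ne_bot_of_nil (pgroup_nil hT) h1)
      (le_bot_iff.1 (Coprime.le_of_forall_hyperplane hA hVn
        (coprime_pgroups (PGroup.elemAb_isPGroup hA) (PGroup.elemAb_isPGroup hV) hp2) e))
  obtain ⟨u, hu, hu1⟩ := exists_ne_one fun e => a3 e.le
  have hu2 := PGroup.elemAb_orderOf hV hu.1 hu1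
  have hH := PGroup.elemAb_of_le hA a1
  have hHA : Nat.card A ≤ p * Nat.card H := by
    rw [← BG.card_mul_relIndex a1, mul_comm]
    exact Nat.mul_le_mul_right _ (Nat.le_of_dvd hp.out.pos a2)
  have hH2 : p ^ 2 ≤ Nat.card H :=
    Nat.le_of_mul_le_mul_left (by rw [← pow_succ']; exact h3.trans hHA) hp.out.pos
  obtain ⟨⟨B, t⟩, ⟨b1, b2, b3⟩, hmax⟩ := Set.exists_max_image
    {x : Subgroup G × G | IsElementaryAbelian p x.1 ∧ orderOf x.2 = 2 ∧ x.1 ≤ 𝐂[x.2]}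
    (fun x => Nat.card x.1) (Set.toFinite _) ⟨(H, u), hH, hu2, le_cent1_iff.2 hu.2⟩
  have hm : ∀ (B' : Subgroup G) (s : G), IsElementaryAbelian p B' → orderOf s = 2 → B' ≤ 𝐂[s] →
      Nat.card B' ≤ Nat.card B := fun B' s e1 e2 e3 => hmax (B', s) ⟨e1, e2, e3⟩
  have hHB := hm H u hH hu2 (le_cent1_iff.2 hu.2)
  refine MP.false ⟨hp2, hL, b1, b2, b3, hH2.trans hHB, hm⟩ h2 (h3.trans ?_)
  rcases hHB.eq_or_lt with e | e
  · have h' : MP p H u := ⟨hp2, hL, hH, hu2, le_cent1_iff.2 hu.2, hH2, e ▸ hm⟩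
    have h4 := h'.r3 (PGroup.elemAb_of_le hV inf_le_left) (norm_of_cent (cent_symm inf_le_right))
      (fun x (hx : x ∈ omegaOne 2 𝐙(T) ⊓ 𝐂(H)) => mem_cent1.2 (PGroup.elemAb_comm hV hx.1 hu.1))
    refine hm A u hA hu2 fun a ha => mem_cent1.2 (mul_inv_eq_iff_eq_mul.1
      (((mem_zpowers_two hu2).1 (h4 (conj_mem_of_norm
        (norm_inf hVn (norm_cent (abelian_norm hA.1 a1)) ha) hu))).resolve_left fun e => hu1 ?_))
    simpa using e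
  · obtain ⟨i, hi⟩ := PGroup.elemAb_card hH
    obtain ⟨j, hj⟩ := PGroup.elemAb_card b1
    rw [hi, hj] at e
    rw [hj]
    refine hHA.trans ?_
    rw [hi, ← pow_succ']
    exact Nat.pow_le_pow_right hp.out.pos ((Nat.pow_lt_pow_iff_right hp.out.one_lt).1 e)

end Cfsg.Lib.Mas
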