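import Cfsg.Agent.Lib.Mas.KM2
import Cfsg.Agent.Lib.Amalgam.S3

/-! # Consequences of the Klinger-Mason argument for `p = 3` -/

set_option autoImplicit false

namespace Cfsg.Lib.Mas

open Subgroup Cfsg.Lib Cfsg.Lib.BG Cfsg.Lib.Transfer Cfsg.Lib.Loc Cfsg.Lib.Core
open Cfsg.Lib.Sig (mem_zpowers_two sq_of_two ne_one_of_two)
open scoped Cfsg.Lib.Transfer commutatorElement

variable {G : Type*} [Group G] [Finite G] {t b y : G} {A B E U X Y : Subgroup G}

theorem card_sq_eq_two (ht : orderOf t = 2) (tY : t ∈ Y) (h : ∀ x ∈ Y, x ^ 2 = 1 → x ∈ zpowers t) :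
    Nat.card {x : Y // x ^ 2 = 1} = 2 := by
  refine Eq.trans (Nat.card_congr
    { toFun := fun x => (⟨x.1.1, h _ x.1.2 (congrArg Subtype.val x.2)⟩ : zpowers t)
      invFun := fun x => ⟨⟨x.1, zpowers_le.2 tY x.2⟩,
        Subtype.ext ((PGroup.elemAb_zpowers (sq_of_two ht)).2 _ x.2)⟩
      left_inv := fun _ => rfl
      right_inv := fun _ => rfl }) (by rw [Nat.card_zpowers, ht])

theorem exists_elab_of_ex {E : Type*} [Group E] [Finite E] (h : IsExtraspecial 2 E) {n k : ℕ}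
    (hn : Nat.card E = 2 ^ (2 * n + 1)) (hk : k + 1 ≤ n) :
    ∃ A : Subgroup E, IsElementaryAbelian 2 A ∧ Nat.card A = 2 ^ (k + 1) := by
  obtain ⟨m, D, -, -, hB⟩ := ES.exists_ext_of_isExtraspecial h
  exact D.exists_elemAb_card_iff.2 (by have := D.wittIndex_Q_eq_or hB hn; omega)

section

variable (c2 : C2 G) (ol : OL 3 G)
include c2 ol

theorem km (hB : IsElementaryAbelian 3 B) (ht : orderOf t = 2) (hc : B ≤ 𝐂[t]) : Nat.card B ≤ 3 ^ 2 :=
  have e := Elem.zpowers (mem_top t) ht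
  klinger_mason (by norm_num) ol c2 e.pgroup (e.ne_bot one_ne_zero) hB (hc.trans (cent_zpowers t ▸ cent_le_norm _))

theorem mk_mp (hB : IsElementaryAbelian 3 B) (ht : orderOf t = 2) (hc : B ≤ 𝐂[t]) (h9 : 3 ^ 2 ≤ Nat.card B) :
    MP 3 B t := ⟨by norm_num, ol, hB, ht, hc, h9, fun _ _ a b c => (km c2 ol a b c).trans h9⟩

theorem exists_mp (hU : IsPGroup 2 U) (h1 : U ≠ ⊥) (hE : Elem 3 2 E 𝐍(U)) : ∃ B t, MP 3 B (t : G) := by
  have v := elab_Ohm1_center 2 U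
  have n := hE.le.trans (norm_Ohm1 (norm_center le_rfl) 2)
  obtain ⟨b, hb, b1, e⟩ := Coprime.exists_inf_centralizer_ne_bot hE.abelian (hE.not_cyclic le_rfl) n
    (coprime_pgroups hE.pgroup (elab_pgroup v) (by norm_num)) (Ohm1_center_ne_bot hU h1)
  have a := elab_of_le v (inf_le_left : _ ⊓ 𝐂[b] ≤ _)
  obtain ⟨k, hk⟩ := Elem.of_elab a le_top
  have z := hE.zpowers_of_mem hb b1
  rcases k with _ | _ | k
  · exact absurd (Elem.zero_iff.1 hk) e
  · obtain ⟨t, ht, t1⟩ := exists_ne_one e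
    exact ⟨E, t, mk_mp c2 ol hE.elem (hk.orderOf_eq ht t1) (le_cent1_iff.2 (cent_symm (Amalgam.cent_of_card_two
      hk.card_one (norm_inf n ((le_cent1_iff.2 (hE.cent hb)).trans (le_norm _)))) ht)) hE.card.ge⟩
  · obtain ⟨R, hR⟩ := ol _ z.elem (z.ne_bot one_ne_zero)
    obtain ⟨s, -, hs, B, b1, -, b2, b3⟩ := exists_big (k := 1) (by norm_num) z.elem hR a
      (cent_zpowers b ▸ inf_le_right) (hk.card ▸ Nat.pow_le_pow_right two_pos (by omega))
    exact ⟨B, s, mk_mp c2 ol b1 hs (b2.trans inf_le_right) (by rwa [z.card] at b3)⟩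

theorem rank3 (hA : IsElementaryAbelian 2 A) (hy : orderOf y = 3) (hc : A ≤ 𝐂[y]) : Nat.card A ≤ 4 := by
  by_contra! e
  have z := Elem.zpowers (mem_top y) hy
  obtain ⟨k, hk⟩ := Elem.of_elab hA le_top
  obtain ⟨R, hR⟩ := ol _ z.elem (z.ne_bot one_ne_zero)
  obtain ⟨s, -, hs, B, b1, -, b2, b3⟩ := exists_big (k := 2) (by norm_num) z.elem hR hA (cent_zpowers y ▸ hc)
    (hk.card ▸ Nat.pow_le_pow_right two_pos ((Nat.pow_lt_pow_iff_right one_lt_two).1 (hk.card ▸ e : 2 ^ 2 < _)))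
  have := km c2 ol b1 hs (b2.trans inf_le_right)
  rw [z.card] at b3
  omega

end

theorem MP.elem (h : MP 3 B t) (c2 : C2 G) : Elem 3 2 B 𝐂[t] :=
  ⟨h.cent, h.el, le_antisymm (km c2 h.loc h.el h.ord h.cent) h.big⟩

theorem MP.d81 (h : MP 3 B t) (c2 : C2 G) (hA : Elem 3 3 A ⊤) : 81 ∣ Nat.card G := by
  by_contra e
  obtain ⟨P, hP, AP⟩ := Syl.exists_ge hA.pgroup le_top
  obtain ⟨k, hk⟩ := hP.pgroup.exists_card_eq
  obtain rfl : A = P := BG.eq_of_le_of_card_le AP (by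
    rw [hk, hA.card]
    exact Nat.pow_le_pow_right three_pos (by_contra fun c => e (((pow_dvd_pow 3 (show 4 ≤ k by omega)).trans
      hk.symm.dvd).trans (card_subgroup_dvd_card P))))
  have q := core_pgroup 2 𝐂[t]
  have n := h.cent.trans (le_normalizer_core 2 𝐂[t])
  have hB := h.elem c2
  refine hB.ne_bot two_ne_zero (eq_bot_mono (disjoint_of_coprime (h.cop q)) (le_inf le_rfl ((c2 t h.ord).le_core h.cent
    (cent_symm (coprime_abelian_gen_cent1 hB.abelian (hB.not_cyclic le_rfl) n (h.cop q) fun b hb b1 => ?_)))))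
  have z := hB.zpowers_of_mem hb b1
  obtain ⟨R, hR⟩ := h.loc _ z.elem (z.ne_bot one_ne_zero)
  have bB : B ≤ 𝐂(zpowers b) := cent_symm (z.le.trans hB.cent)
  obtain ⟨S, hS, BS⟩ := Syl.exists_ge h.pg bB
  obtain ⟨g, -, hg⟩ := hP.exists_le_conj hS.pgroup le_top
  have ab := abelian_of_le ((abelian_conj g).2 hA.abelian) hg
  have BR := (le_inf bB (abelian_cent' ab BS inf_le_left)).trans (hR.con _ (hS.inf_nml ⟨hR.le, hR.norm⟩))
  exact comm_eq_bot_iff'.1 (eq_bot_mono (disjoint_of_coprime (cop_odd hR.odd q)) (le_inf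
    ((commutator_mono BR (cent_zpowers b ▸ inf_le_right)).trans (comm_le_left hR.norm))
    ((commutator_mono le_rfl inf_le_left).trans (comm_le_right n))))

theorem MP.card_le (h : MP 3 B t) (c2 : C2 G) (x : IsExtraspecial 2 (pCoreOf 2 𝐂[t]))
    (lg : ES.Lg (pCoreOf 2 𝐂[t]) t) (hb : b ∈ B) (b1 : b ≠ 1) : Nat.card ↥(pCoreOf 2 𝐂[t] ⊓ 𝐂[b]) ≤ 8 := by
  have n := h.cent.trans (le_normalizer_core 2 𝐂[t])
  have l := core_le 2 𝐂[t]
  generalize pCoreOf 2 𝐂[t] = Q at *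
  have z := (h.elem c2).zpowers_of_mem hb b1
  have cz := lg.centralizer_eq x
  have tB : t ∈ 𝐂(B) := le_cent1_iff.1 h.cent
  rw [← cent_zpowers]
  rcases ES.cop_isExtraspecial_centralizer x (z.le.trans n) (by rw [z.card]; norm_num)
    (by rw [cz]; exact (z.le.trans h.cent).trans ((cent_zpowers t).ge.trans (cent_anti inf_le_right))) with e | e
  · rw [e, cz]
    exact (card_le_of_le inf_le_right).trans (by rw [lg.card_zpowers]; norm_num)
  obtain ⟨w, w1, hw⟩ := ES.exists_card_eq_of_isExtraspecial e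
  have no : ¬ ∃ A : Subgroup ↥(Q ⊓ 𝐂(zpowers b)), IsElementaryAbelian 2 A ∧ Nat.card A = 2 ^ (2 + 1) :=
    fun ⟨A, a, c⟩ => by
      have := rank3 c2 h.loc (elab_map' a (Subgroup.subtype _)) ((h.elem c2).orderOf_eq hb b1)
        ((map_subtype_le _).trans (cent_zpowers b ▸ inf_le_right))
      rw [card_map_of_injective (subtype_injective _), c] at this
      omega
  obtain rfl | rfl | w3 : w = 1 ∨ w = 2 ∨ 3 ≤ w := by omega
  · exact hw.le
  · have m : _ % 3 = _ % 3 := card_sq_modEq h.pg (norm_inf n (norm_cent (abelian_norm h.el.1 z.le)))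
    have := ES.card_sq_eq_one_of_minus e hw no
    rw [card_sq_eq_two (Y := Q ⊓ 𝐂(zpowers b) ⊓ 𝐂(B)) h.ord ⟨⟨lg.mem, cent_anti z.le tB⟩, tB⟩ fun u hu u2 => by_contra fun c => by
      have k := (Elem.zpowers (H := 𝐂(B)) tB h.ord).sup_zpowers hu.2 (cent_zpowers t ▸ l hu.1.1) u2 c
      have := h.r1 k.elem k.le
      rw [k.card] at this
      omega] at m
    omega
  · exact absurd (exists_elab_of_ex e hw w3) no

/-- Every element of order `3` of `C(t)` lies in an `E₉` of `C(t)`. -/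
theorem MP.exists_mem (h : MP 3 B t) (c2 : C2 G) (hy : y ∈ 𝐂[t]) (y3 : orderOf y = 3) : ∃ B, MP 3 B t ∧ y ∈ B := by
  have z := Elem.zpowers hy y3
  obtain ⟨S, hS, yS⟩ := Syl.exists_ge z.pgroup z.le
  obtain ⟨A, hA, yA⟩ := MaxElem.exists_ge z.elem yS
  refine ⟨A, mk_mp c2 h.loc hA.elem h.ord (hA.le.trans hS.le) ?_, yA (mem_zpowers y)⟩
  obtain ⟨k, hk⟩ := hA.exists_elem
  rw [hk.card]
  refine Nat.pow_le_pow_right three_pos (by_contra fun c => ?_)
  obtain rfl : k = 1 := by have := z.rank_le hk yA; omega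
  obtain ⟨g, hg, e⟩ := hS.exists_conj_le h.pg h.cent
  have f := ((h.elem c2).conj_of_mem hg).of_le e
  have o := hk.eq_of_ne_bot hA.Ohm1_center_le (Ohm1_center_ne_bot hS.pgroup (ne_bot_mono (f.ne_bot two_ne_zero) e))
  have := f.rank_le hk (hA.ge f.elem e (cent_symm (o.ge.trans ((Ohm1_le _ _).trans
    (inf_le_right.trans (cent_anti e))))))
  omega

theorem MP.hy (h : MP 3 B t) (c2 : C2 G) (x : IsExtraspecial 2 (pCoreOf 2 𝐂[t]))
    (lg : ES.Lg (pCoreOf 2 𝐂[t]) t) (hy : y ∈ 𝐂[t]) (y3 : orderOf y = 3) :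
    Nat.card ↥(pCoreOf 2 𝐂[t] ⊓ 𝐂[y]) ≤ 8 :=
  let ⟨_, a, b⟩ := h.exists_mem c2 hy y3
  a.card_le c2 x lg b fun e => by simp [e] at y3

theorem MP.fx (h : MP 3 B t) (c2 : C2 G) (hA : Elem 3 3 A ⊤) (m2 : ¬ PRankLE 2 2 G) : Fx G :=
  ⟨c2, fun _ _ => km c2 h.loc, ⟨B, t, h.el, h.ord, h.cent, (h.elem c2).card⟩, fun _ _ => rank3 c2 h.loc,
    h.d81 c2 hA, m2⟩

end Cfsg.Lib.Mas
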