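import Cfsg.Agent.Lib.Mas.W4a
import Cfsg.Agent.Lib.PLocal.BaerSuzuki
import Cfsg.Agent.Lib.Transfer.Criteria

/-! # Large extraspecial subgroups of width at least four

`Q = O₂(C(t))` extraspecial of order `≥ 2⁹`, `t' = g t g⁻¹ ∈ Q`, `Q' = g ⋆ Q` (`ES.Lg.pr`), `Z = ⟨t, t'⟩`,
`I = Q ⊓ Q'` (elementary abelian), `Q₁ = C_Q(t')`, `R = C_{Q'}(t)` (index 2), `[R, Q₁] ≤ I`.

* (a) `|I| ≤ 16`: `Q ⊔ Q'` induces `S₃` on `Z` (`Lg.exists_conj_pair`) and centralizes `I / Z`; a 3-element `ρ`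
  moving `t` has `I = C_I(ρ) Z`, and a power of `ρ` of order 3 centralizes `C_I(ρ)`, so `|C_I(ρ)| ≤ 4` by `r3`.
* (b) `R₀ = {a ∈ R | [Q₁, a] ≤ Z}` has index `≤ 2` in `R`: `Q₂ = C_Q(I)` has `[Q₂, R] ≤ Z(Q₁) = Z`,
  `Q₁ = ⟨Q₂, x₁, x₂⟩`, `[x, a]` commutes with `x` (compare squares), and `a ↦ [[x₁, a], x₂]` is a homomorphism
  to `⟨t⟩` with kernel `R₀`.  So `|R₀ : I| ≥ 8`.
* (c) Fix `u ∈ Q ∖ Q₁`, `x_a = [u, a] ∈ Q₁`, `x_{ab} ≡ x_a x_b` mod `Z`.  If `x_a² = t` for all `a ∈ R₀ ∖ I` then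
  `[x_a, x_b] = t` for independent `a, b`; three independent `a, b, c` contradict bilinearity.  So some
  `a ∈ C(t) ∖ Q` has `[Q, a] ≤ E = Z ⟨x_a⟩`, elementary abelian of order `≤ 8`.
* (d) Baer-Suzuki: `⟨a, a^c⟩` (`c ∈ C(t)`) contains `y` of odd prime order `r`; `[Q, y] ≤ H = E E^c`, `|H| ≤ 32`.
  `|C_Q(y)| ≥ 32`, so `r ≠ 3`.  `[Q, y]` is extraspecial (`ES.cop_isExtraspecial_commutator`) with fixed points
  `⟨t⟩`, so its order is `≡ 2 mod r`: order 32, `r = 5`, `[Q, y] = H ≥ E` of order 8, plus type, and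
  `20 ≢ 2 mod 5` (`card_sq_modEq`, `ES.card_sq_eq_one_of_plus`). -/

set_option autoImplicit false

namespace Cfsg.Lib.Mas

open Subgroup Cfsg.Lib Cfsg.Lib.BG Cfsg.Lib.Transfer Cfsg.Lib.Loc Cfsg.Lib.Core
open scoped MatrixGroups Cfsg.Lib.Transfer commutatorElement

variable {G : Type*} [Group G] [Finite G]

open ES W4 in
theorem w4 (h : Fx G) {t g : G} (ht : orderOf t = 2) (hQ : IsExtraspecial 2 (pCoreOf 2 𝐂[t]))
    (hc : 2 ^ 9 ≤ Nat.card (pCoreOf 2 𝐂[t])) (g1 : g * t * g⁻¹ ≠ t) (g2 : g * t * g⁻¹ ∈ pCoreOf 2 𝐂[t])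
    (hy : ∀ y ∈ 𝐂[t], orderOf y = 3 → Nat.card ↥(pCoreOf 2 𝐂[t] ⊓ 𝐂[y]) ≤ 8) : False := by
  have := Fact.mk Nat.prime_three
  have tQ : t ∈ pCoreOf 2 𝐂[t] := h.c2 t ht ⟨mem_cent1.2 rfl, fun x m => mem_cent1.1 (core_le 2 _ m)⟩
  have L := lg_of_pCore ht rfl hQ fun x m => h.c2 t ht ⟨mem_cent1.2 (m t tQ).symm, m⟩
  have P := L.pr g2 g1
  have bs := fun x a => PLocal.exists_conj_not_isPGroup_of_not_mem_pCore_map (p := 2) (H := 𝐂[t]) (x := x) a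
  have cR := Transfer.card_conj g (pCoreOf 2 𝐂[t])
  have cZ := (elZ P).card
  obtain ⟨ρ, ρ1, ρ2, ρ3⟩ := L.exists_conj_pair g2 g1 (subset_closure (.inr rfl)) (P.mem_iff.2 (.inr (.inr (.inr rfl)))) P.r.ne_one
    (fun e => g1 (by rw [eq_inv_of_mul_eq_one_right e, L.inv_eq])) fun e => L.ne_one (mul_eq_right.1 e.symm)
  change ∀ x ∈ _, x ∉ pCoreOf 2 𝐂[t] → _ at bs
  change Pr (pCoreOf 2 𝐂[t]) (g ⋆ pCoreOf 2 𝐂[t]) _ _ at P
  change ρ ∈ pCoreOf 2 𝐂[t] ⊔ g ⋆ pCoreOf 2 𝐂[t] at ρ1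
  change Lg (pCoreOf 2 𝐂[t]) t at L
  generalize g ⋆ pCoreOf 2 𝐂[t] = R, g * t * g⁻¹ = s at *
  generalize pCoreOf 2 𝐂[t] = Q at *
  have d3 : 3 ∣ orderOf ρ := by
    by_contra n
    obtain ⟨m, e⟩ := exists_pow_eq_self_of_coprime ((Nat.Prime.coprime_iff_not_dvd Nat.prime_three).2 n)
    have : ρ ^ 3 ∈ 𝐂[t] := mem_cent1.2 (mul_inv_eq_iff_eq_mul.1 (by
      rw [show ρ ^ 3 * t * (ρ ^ 3)⁻¹ = ρ * (ρ * (ρ * t * ρ⁻¹) * ρ⁻¹) * ρ⁻¹ by rw [pow_three]; group, ρ2, ρ3, ← conj_mul, ρ2, ρ3,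
        P.comm, ← mul_assoc, P.r.mul_self, one_mul]))
    exact g1 (ρ2.symm.trans (mul_inv_eq_iff_eq_mul.2 (mem_cent1.1 (e ▸ pow_mem this m))))
  have hI : Nat.card ↥(Q ⊓ R) ≤ 16 := (fib_comm (y := ρ ^ (orderOf ρ / 3)) fun x m =>
    P.commutator_inf_le (commutator_mem_commutator (pow_mem ρ1 _) m)).trans (Nat.mul_le_mul cZ.le (h.r3 (Q ⊓ R ⊓ _) _
      (PGroup.elemAb_two_iff.2 fun x m => P.sq_eq_one m.1) (orderOf_pow_orderOf_div (orderOf_pos ρ).ne' d3) inf_le_right))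
  obtain ⟨a, a1, a2, E, e1, e2, e3, e4, e5⟩ := small hQ P hI (cR ▸ hc)
  obtain ⟨c, c1, c2⟩ := bs a a1 a2
  obtain ⟨r, r1, r2, r3⟩ : ∃ r, r.Prime ∧ r ∣ Nat.card (closure ({a, c * a * c⁻¹} : Set G)) ∧ r ≠ 2 := by
    by_contra! k
    exact c2 (.of_card (Nat.eq_prime_pow_of_unique_prime_dvd Nat.card_pos.ne' fun p q => k _ p q))
  have := Fact.mk r1
  obtain ⟨⟨y, y1⟩, y2⟩ := exists_prime_orderOf_dvd_card' r r2
  replace y2 : orderOf y = r := (Subgroup.orderOf_coe ⟨y, y1⟩).trans y2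
  have nq : ∀ {x v}, x ∈ 𝐂[t] → v ∈ Q → x * v * x⁻¹ ∈ Q := fun p q => conj_mem_of_norm (L.norm p) q
  have f1 : c ⋆ E ≤ Q := conj_le_iff.2 fun x m => nq c1 (e1 m)
  have f2 : t ∈ c ⋆ E := ⟨t, e2, mul_inv_eq_iff_eq_mul.2 (mem_cent1.1 c1)⟩
  let D : Subgroup G :=
    { carrier := {x | x ∈ 𝐂[t] ∧ ∀ v ∈ Q, ⁅x, v⁆ ∈ E ⊔ c ⋆ E}
      mul_mem' := fun {x w} p q => ⟨mul_mem p.1 q.1, fun v m => by
        rw [show ⁅x * w, v⁆ = ⁅x, w * v * w⁻¹⁆ * ⁅w, v⁆ by simp only [commutatorElement_def]; group]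
        exact mul_mem (p.2 _ (nq q.1 m)) (q.2 v m)⟩
      one_mem' := ⟨one_mem _, fun v _ => by simp⟩
      inv_mem' := fun {x} p => ⟨inv_mem p.1, fun v m => by
        rw [show ⁅x⁻¹, v⁆ = ⁅x, x⁻¹ * v * x⁻¹⁻¹⁆⁻¹ by simp only [commutatorElement_def]; group]
        exact inv_mem (p.2 _ (nq (inv_mem p.1) m))⟩ }
  have yD : zpowers y ≤ D := zpowers_le.2 ((Subgroup.closure_le D).2 (Set.pair_subset ⟨a1, fun v m => mem_sup_left (e5 v m)⟩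
    ⟨mul_mem (mul_mem c1 a1) (inv_mem c1), fun v m => mem_sup_right
      ⟨_, e5 _ (nq (inv_mem c1) m), by simp only [MulEquiv.coe_toMonoidHom, MulAut.conj_apply, commutatorElement_def]; group⟩⟩) y1)
  have c3 := card_sup_mul_card_inf (e1.trans (L.le_normalizer_of_mem f1 f2))
  have c4 : 2 ≤ Nat.card ↥(E ⊓ c ⋆ E) := L.card_zpowers ▸ card_le_of_le (zpowers_le.2 ⟨e2, f2⟩)
  rw [Transfer.card_conj] at c3
  have c5 : Nat.card ↥(E ⊔ c ⋆ E) * 2 ≤ Nat.card E * Nat.card E := c3 ▸ Nat.mul_le_mul_left _ c4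
  have c6 := Nat.mul_le_mul e4 e4
  have yt := (yD (mem_zpowers y)).1
  by_cases q3 : r = 3
  · have := (fib_comm (yD (mem_zpowers y)).2).trans (Nat.mul_le_mul_left _ (hy y yt (y2.trans q3)))
    omega
  have cy := (Nat.card_zpowers y).trans y2
  have A := zpowers_le.2 (L.norm yt)
  have cop : (Nat.card (zpowers y)).Coprime 2 := cy ▸ (Nat.coprime_primes r1 Nat.prime_two).2 r3
  have hZ : zpowers y ≤ 𝐂(Q ⊓ 𝐂(Q)) := by
    rw [inf_centralizer_eq_zpowers hQ L.mem L.ne_one L.cent, cent_zpowers]; exact zpowers_le.2 yt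
  have K := cop_isExtraspecial_commutator hQ A cop hZ fun l => by
    obtain ⟨k, e⟩ := (L.isPGroup.to_le (l.trans L.cen_le)).exists_card_eq
    exact r3 ((Nat.prime_dvd_prime_iff_eq r1 Nat.prime_two).1 (r1.dvd_of_dvd_pow (e ▸ cy.symm.dvd)))
  have l : ⁅Q, zpowers y⁆ ≤ E ⊔ c ⋆ E := (commutator_comm ..).trans_le (commutator_le.2 fun x m => (yD m).2)
  have lq := l.trans (sup_le e1 f1)
  have tK : t ∈ ⁅Q, zpowers y⁆ := L.mem_of_le_normalizer lq (normalizer_commutator_ge_left ..) fun e =>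
    not_isMulCommutative K (by rw [e]; infer_instance)
  have fx : ⁅Q, zpowers y⁆ ⊓ 𝐂(zpowers y) = zpowers t := le_antisymm ((inf_centralizer_eq_zpowers K tK L.ne_one (lq.trans L.cent)).le.trans'
    fun x m => ⟨m.1, cop_comm hQ hZ ⟨lq m.1, m.2⟩⟩) (zpowers_le.2 ⟨tK, cent_zpowers y ▸ mem_cent1.2 (mem_cent1.1 yt).symm⟩)
  have py : IsPGroup r (zpowers y) := .of_card (cy.trans (pow_one r).symm)
  have m1 := card_modEq_card_inf_centralizer py (normalizer_commutator_ge_right Q _)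
  have m2 := card_sq_modEq py (normalizer_commutator_ge_right Q _)
  obtain ⟨n, n1, n2⟩ := exists_card_eq_of_isExtraspecial K
  have c7 := card_le_of_le l
  rw [fx] at m1 m2
  rw [L.card_zpowers, n2] at m1
  rw [Nat.card_congr (Equiv.subtypeUnivEquiv fun x : zpowers t => Subtype.ext ((PGroup.elemAb_zpowers ((sq t).trans L.mul_self)).2 x x.2)),
    L.card_zpowers] at m2
  have n3 : n < 3 := by
    by_contra k
    have := Nat.pow_le_pow_right two_pos (show 7 ≤ 2 * n + 1 by omega)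
    omega
  have r6 : ¬r ∣ 2 * 3 := fun d => (r1.dvd_mul.1 d).elim (fun d => r3 ((Nat.prime_dvd_prime_iff_eq r1 Nat.prime_two).1 d))
    fun d => q3 ((Nat.prime_dvd_prime_iff_eq r1 Nat.prime_three).1 d)
  interval_cases n
  · exact r6 ((Nat.modEq_iff_dvd' (by decide)).1 m1.symm)
  have e8 : Nat.card E = 8 := by
    by_contra k
    have := Nat.mul_le_mul (show Nat.card E ≤ 7 by omega) (show Nat.card E ≤ 7 by omega)
    omega
  have EK : E ≤ ⁅Q, zpowers y⁆ := le_sup_left.trans (eq_of_le_of_card_ge l (by omega)).ge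
  rw [card_sq_eq_one_of_plus K n2 ⟨E.subgroupOf _, PGroup.elemAb_two_iff.2 fun x m => Subtype.ext (e3.2 _ m),
    (card_subgroupOf_of_le EK).trans e8⟩] at m2
  exact r6 (Nat.dvd_gcd ((Nat.modEq_iff_dvd' (by decide)).1 m1.symm) ((Nat.modEq_iff_dvd' (by decide)).1 m2.symm))

end Cfsg.Lib.Mas
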