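import Cfsg.Agent.Lib.Mas.Defs
import Cfsg.Agent.Lib.Extraspecial.Data

/-! # Two large extraspecial subgroups with a small intersection -/

set_option autoImplicit false

namespace Cfsg.Lib.Mas.W4

open Subgroup Cfsg.Lib Cfsg.Lib.BG Cfsg.Lib.Transfer Cfsg.Lib.ES
open scoped Cfsg.Lib.Transfer commutatorElement

variable {G : Type*} [Group G] [Finite G] {S T Q R : Subgroup G} {z s a b c x y u v w : G}

theorem fib {ι : Type*} [Finite ι] (φ : S → ι) (h : ∀ a b, φ a = φ b → a.1⁻¹ * b.1 ∈ T) : Nat.card S ≤ Nat.card ι * Nat.card T := by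
  rw [← Nat.card_prod]
  refine Nat.card_le_card_of_injective (fun a => (φ a, ⟨_, h (Function.invFun φ (φ a)) a (Function.invFun_eq ⟨a, rfl⟩)⟩)) fun a b e => ?_
  obtain ⟨p, q⟩ := Prod.ext_iff.1 e
  replace q := congrArg Subtype.val q
  dsimp only at p q
  rw [p] at q
  exact Subtype.ext (mul_left_cancel q)

theorem fib_comm (h : ∀ x ∈ S, ⁅y, x⁆ ∈ T) : Nat.card S ≤ Nat.card T * Nat.card ↥(S ⊓ 𝐂[y]) :=
  fib (fun x => (⟨_, h x x.2⟩ : T)) fun a b e => ⟨S.mul_mem (S.inv_mem a.2) b.2, mem_cent1.2 (by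
    replace e : ⁅y, a.1⁆ = ⁅y, b.1⁆ := congrArg Subtype.val e
    calc _ = (⁅y, a.1⁆ * a)⁻¹ * (⁅y, a.1⁆ * b) * y := by group
      _ = _ := by nth_rewrite 2 [e]; simp only [commutatorElement_def]; group)⟩

theorem avoid {n : ℕ} (f : Fin n → G) (h : n * Nat.card T < Nat.card S) : ∃ c ∈ S, ∀ i, f i * c ∉ T := by
  by_contra! k
  choose φ e using k
  refine h.not_ge ((fib (fun c => φ c c.2) fun a b p => ?_).trans_eq (by rw [Nat.card_fin]))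
  have := mul_mem (inv_mem (e a a.2)) (e b b.2)
  rwa [← p, mul_inv_rev, mul_assoc, inv_mul_cancel_left] at this

theorem two_le (h : S < T) : 2 * Nat.card S ≤ Nat.card T := by
  obtain ⟨k, e⟩ := card_dvd_of_le h.le
  have := card_lt_of_lt h
  rw [e, mul_comm 2] at *
  exact Nat.mul_le_mul_left _ ((Nat.lt_mul_iff_one_lt_right Nat.card_pos).1 this)

open Classical in
/-- the commutator form -/
noncomputable def bb (x y : G) : ZMod 2 := if x * y = y * x then 0 else 1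

omit [Finite G] in
theorem bb0 : bb x y = 0 ↔ x * y = y * x := by unfold bb; split_ifs with h <;> simp [h]
theorem z2 {a b : ZMod 2} (h : a = 0 ↔ b = 0) : a = b := by revert a b; decide
omit [Finite G] in
theorem bb_comm (x y : G) : bb x y = bb y x := z2 (by rw [bb0, bb0, eq_comm])
omit [Finite G] in
theorem bb_conj (g x y : G) : bb (g * x * g⁻¹) (g * y * g⁻¹) = bb x y := z2 (by rw [bb0, bb0, conj_mul, conj_mul, mul_left_inj, mul_right_inj])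
omit [Finite G] in
theorem bb_inv (x y : G) : bb x⁻¹ y = bb x y := z2 (by rw [bb0, bb0]; exact Commute.inv_left_iff)

section
variable (hQ : IsExtraspecial 2 Q)
include hQ

theorem bb_sqv (hx : x ∈ Q) (hy : y ∈ Q) (hw : w ∈ Q) : bb (x * y) w = bb x w + bb y w ∧ sqv (x * y) = sqv x + sqv y + bb x y := by
  obtain ⟨n, D, -, -, -⟩ := exists_ext_of_isExtraspecial hQ
  have k : ∀ a : Q, sqv (a : G) = D.P (D.π a) := fun a => z2 (by rw [sqv_eq_zero, ← D.pow_eq_one_iff, Subtype.ext_iff]; rfl)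
  have l : ∀ a b : Q, bb (a : G) b = D.B (D.π a) (D.π b) := fun a b => z2 (by rw [bb0, ← D.mul_comm_iff, Subtype.ext_iff]; rfl)
  exact ⟨(l (⟨x, hx⟩ * ⟨y, hy⟩) ⟨w, hw⟩).trans (by rw [D.π_mul, map_add, LinearMap.add_apply, ← l, ← l]),
    (k (⟨x, hx⟩ * ⟨y, hy⟩)).trans (by rw [D.π_mul, D.P_add_two, ← k, ← k, ← l])⟩

variable (h : Pr Q R z s)
include h

local notation "𝐀" => R ⊓ 𝐂[z]
local notation "𝐁" => Q ⊓ 𝐂[s]
local notation "𝐙" => Subgroup.closure (insert z (singleton s) : Set G)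

omit [Finite G] hQ in
theorem cj (ha : a ∈ 𝐀) (hx : x ∈ Q) : a * x * a⁻¹ ∈ Q := conj_mem_of_norm (h.l.norm ha.2) hx
omit [Finite G] hQ in
theorem mB (ha : a ∈ 𝐀) (hx : x ∈ Q) : ⁅a, x⁆ ∈ 𝐁 :=
  commutator_comm Q _ ▸ h.commutator_centralizer_le <| commutator_mem_commutator ⟨ha.2, h.r.cent ha.1⟩ hx
omit [Finite G] hQ in
theorem zB (hx : x ∈ 𝐙) (hy : y ∈ 𝐁) : bb x y = 0 :=
  bb0.2 ((Pr.centralizer_pair.ge (⟨h.l.cent hy.1, hy.2⟩ : y ∈ 𝐂[z] ⊓ 𝐂[s])) x hx)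

theorem sym (ha : a ∈ 𝐀) (hx : x ∈ Q) (hy : y ∈ Q) : bb ⁅a, x⁆ y = bb ⁅a, y⁆ x := by
  have k : ∀ {x y}, x ∈ Q → y ∈ Q → bb ⁅a, x⁆ y = bb (a * x * a⁻¹) y + bb x y := fun hx hy => by
    rw [commutatorElement_def, (bb_sqv hQ (cj h ha hx) (inv_mem hx) hy).1, bb_inv]
  rw [k hx hy, k hy hx, bb_comm y x, ← bb_conj a (a * x * a⁻¹), bb_comm (a * y * a⁻¹), show a * (a * x * a⁻¹) * a⁻¹ = a ^ 2 * x * (a ^ 2)⁻¹ by rw [sq]; group]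
  rcases h.l.conj_eq_or (zpowers_le.2 h.mem_l (h.r.sq_mem a ha.1)) hx with e | e <;> rw [e]
  rw [(bb_sqv hQ h.l.mem hx (cj h ha hy)).1, bb0.2 (h.l.comm (cj h ha hy)).symm, zero_add]

theorem alt (ha : a ∈ 𝐀) (hx : x ∈ Q) : bb ⁅a, x⁆ x = sqv ⁅a, x⁆ := by
  have := (bb_sqv hQ (mB h ha hx).1 hx hx).2
  rw [commutatorElement_def a x, inv_mul_cancel_right, sqv_conj, ← commutatorElement_def] at this
  generalize sqv x = p, sqv ⁅a, x⁆ = q, bb ⁅a, x⁆ x = r at this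
  revert p q r; decide

theorem add (ha : a ∈ 𝐀) (hb : b ∈ 𝐀) (hx : x ∈ Q) (hy : y ∈ Q) :
    bb ⁅a * b, x⁆ y = bb ⁅a, x⁆ y + bb ⁅b, x⁆ y + bb ⁅a, ⁅b, x⁆⁆ y := by
  have m := (mB h hb hx).1
  rw [show ⁅a * b, x⁆ = ⁅a, ⁅b, x⁆ * x⁆ * ⁅b, x⁆ by simp only [commutatorElement_def]; group,
    (bb_sqv hQ (mB h ha (mul_mem m hx)).1 m hy).1, sym hQ h ha (mul_mem m hx) hy, bb_comm, (bb_sqv hQ m hx (mB h ha hy).1).1,
    bb_comm x, bb_comm ⁅b, x⁆ ⁅a, y⁆, sym hQ h ha hy hx, sym hQ h ha hy m]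
  ring

/-- on `C_Q(s)` the form is additive in the acting element -/
theorem add' (ha : a ∈ 𝐀) (hb : b ∈ 𝐀) (hx : x ∈ 𝐁) (hy : y ∈ 𝐁) : bb ⁅a * b, x⁆ y = bb ⁅a, x⁆ y + bb ⁅b, x⁆ y := by
  rw [add hQ h ha hb hx.1 hy.1, zB h (h.commutator_inf_le (commutator_mem_commutator (mem_sup_right ha.1)
    (h.commutator_cross_le (commutator_mem_commutator hb hx)))) hy, add_zero]

theorem inv' (ha : a ∈ 𝐀) (hx : x ∈ 𝐁) (hy : y ∈ 𝐁) : bb ⁅a⁻¹, x⁆ y = bb ⁅a, x⁆ y := by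
  have := add' hQ h (inv_mem ha) ha hx hy
  rw [inv_mul_cancel, commutatorElement_one_left, bb0.2 (by simp)] at this
  generalize bb ⁅a⁻¹, x⁆ y = p, bb ⁅a, x⁆ y = q at this
  revert p q; decide

omit hQ in
theorem elZ : Elem 2 2 𝐙 (Q ⊓ R) := PGroup.closure_pair_eq_sup z s ▸ (Elem.zpowers (H := Q ⊓ R) ⟨h.l.mem, h.mem_r⟩ h.l.ord).sup_zpowers ⟨h.mem_l, h.r.mem⟩
  (cent_zpowers z ▸ h.l.cent h.mem_l) ((sq s).trans h.r.mul_self) fun m => (h.l.mem_iff.1 m).elim h.r.ne_one h.ne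

/-- the elements that act trivially on `C_Q(s) / Z` -/
def R0 : Subgroup G where
  carrier := {a | a ∈ 𝐀 ∧ ∀ x ∈ 𝐁, ∀ y ∈ 𝐁, bb ⁅a, x⁆ y = 0}
  mul_mem' p q := ⟨mul_mem p.1 q.1, fun x hx y hy => by rw [add' hQ h p.1 q.1 hx hy, p.2 x hx y hy, q.2 x hx y hy, add_zero]⟩
  one_mem' := ⟨one_mem _, fun x _ y _ => bb0.2 (by simp)⟩
  inv_mem' p := ⟨inv_mem p.1, fun x hx y hy => (inv' hQ h p.1 hx hy).trans (p.2 x hx y hy)⟩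

theorem idx (hI : Nat.card ↥(Q ⊓ R) ≤ 16) : Nat.card ↥𝐀 ≤ 2 * Nat.card (R0 hQ h) := by
  by_cases e : 𝐀 ≤ R0 hQ h
  · exact (card_le_of_le e).trans (Nat.le_mul_of_pos_left _ two_pos)
  obtain ⟨a, ha, n⟩ := SetLike.not_le_iff_exists.1 e
  obtain ⟨x, hx, y, hy, n⟩ : ∃ x ∈ 𝐁, ∃ y ∈ 𝐁, bb ⁅a, x⁆ y ≠ 0 := by
    by_contra! k
    exact n ⟨ha, k⟩
  have mI : ∀ {c v}, c ∈ 𝐀 → v ∈ 𝐁 → ⁅c, v⁆ ∈ Q ⊓ R := fun p q => h.commutator_cross_le (commutator_mem_commutator p q)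
  have al : ∀ {c v}, c ∈ 𝐀 → v ∈ 𝐁 → bb ⁅c, v⁆ v = 0 := fun p q => (alt hQ h p q.1).trans (sqv_eq_zero.2 (h.sq_eq_one (mI p q)))
  have k : ∀ {w}, w ∈ Q ⊓ R → bb w x = 0 → bb w y = 0 → w ∈ 𝐙 := fun {w} m p q => by
    by_contra r
    have l1 := two_le (S := 𝐙) (T := Q ⊓ R ⊓ 𝐂[x] ⊓ 𝐂[y]) (lt_of_le_not_ge (fun v m => ⟨⟨h.closure_le m,
      mem_cent1.2 (bb0.1 (zB h m hx))⟩, mem_cent1.2 (bb0.1 (zB h m hy))⟩) fun l => r (l ⟨⟨m, mem_cent1.2 (bb0.1 p)⟩, mem_cent1.2 (bb0.1 q)⟩))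
    have l2 := two_le (S := Q ⊓ R ⊓ 𝐂[x] ⊓ 𝐂[y]) (inf_lt_left.2 fun l =>
      n (bb0.2 (mem_cent1.1 (l ⟨mI ha hx, mem_cent1.2 (bb0.1 (al ha hx))⟩))))
    have l3 := two_le (S := Q ⊓ R ⊓ 𝐂[x]) (inf_lt_left.2 fun l => n ((sym hQ h ha hx.1 hy.1).trans (bb0.2 (mem_cent1.1 (l (mI ha hy))))))
    rw [(elZ h).card] at l1
    omega
  refine (fib (fun c : ↥𝐀 => bb ⁅c.1, x⁆ y) fun b c e => ?_).trans_eq (by rw [Nat.card_zmod])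
  have m := mul_mem (inv_mem b.2) c.2
  have p : bb ⁅b.1⁻¹ * c.1, x⁆ y = 0 := by rw [add' hQ h (inv_mem b.2) c.2 hx hy, inv' hQ h b.2 hx hy, e, CharTwo.add_self_eq_zero]
  exact ⟨m, fun v hv w hw => zB h (k (mI m hv) ((sym hQ h m hv.1 hx.1).trans (zB h (k (mI m hx) (al m hx) p) hv))
    ((sym hQ h m hv.1 hy.1).trans (zB h (k (mI m hy) ((sym hQ h m hy.1 hx.1).trans p) (al m hy)) hv))) hw⟩

theorem small (hI : Nat.card ↥(Q ⊓ R) ≤ 16) (hR : 2 ^ 9 ≤ Nat.card R) : ∃ a ∈ 𝐂[z], a ∉ Q ∧ ∃ E ≤ Q, z ∈ E ∧ IsElementaryAbelian 2 E ∧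
    Nat.card E ≤ 8 ∧ ∀ v ∈ Q, ⁅a, v⁆ ∈ E := by
  classical
  have l := idx hQ h hI
  have l' := (fib (S := R) (T := 𝐀) (fun c => decide (c.1 ∈ 𝐂[z])) fun b c e => by
    rw [decide_eq_decide] at e
    by_cases p : b.1 ∈ 𝐂[z]
    exacts [mul_mem (inv_mem ⟨b.2, p⟩) ⟨c.2, e.1 p⟩, h.symm.inv_mul_mem b.2 c.2 p (mt e.2 p)]).trans_eq (by rw [Nat.card_eq_fintype_card, Fintype.card_bool])
  obtain ⟨u, hu, u1, -⟩ := h.exists_not_mem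
  obtain ⟨a, ha, a1, a2⟩ : ∃ a ∈ R0 hQ h, a ∉ Q ⊓ R ∧ sqv ⁅a, u⁆ = 0 := by
    by_contra! k
    obtain ⟨a, ha, p⟩ := avoid (S := R0 hQ h) (T := Q ⊓ R) ![1] (by omega)
    obtain ⟨b, hb, q⟩ := avoid (S := R0 hQ h) (T := Q ⊓ R) ![1, a] (by omega)
    obtain ⟨c, hc, r⟩ := avoid (S := R0 hQ h) (T := Q ⊓ R) ![1, a, b, a * b] (by omega)
    have k1 : ∀ {a}, a ∈ R0 hQ h → a ∉ Q ⊓ R → bb ⁅a, u⁆ u = 1 := fun m n => (alt hQ h m.1 hu).trans (zmod_two_eq_one_of_ne_zero (k _ m n))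
    have k2 : ∀ {b}, b ∈ R0 hQ h → b ∉ Q ⊓ R → a * b ∉ Q ⊓ R → bb ⁅b, u⁆ ⁅a, u⁆ = 1 := fun m n o => by
      have := add hQ h ha.1 m.1 hu hu
      rw [k1 (mul_mem ha m) o, k1 ha (one_mul a ▸ p 0), k1 m n, sym hQ h ha.1 (mB h m.1 hu).1 hu, bb_comm] at this
      rw [this]; exact (zero_add _).symm
    have := add hQ h hb.1 hc.1 hu (mB h ha.1 hu).1
    rw [k2 (mul_mem hb hc) (r 2) (mul_assoc a b c ▸ r 3), k2 hb (one_mul b ▸ q 0) (q 1), k2 hc (one_mul c ▸ r 0) (r 1),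
      hb.2 _ (mB h hc.1 hu) _ (mB h ha.1 hu)] at this
    exact absurd this (by decide)
  have m := mB h ha.1 hu
  have zq := (elZ h).mono (inf_le_left : Q ⊓ R ≤ Q)
  obtain ⟨E, n, e, l, p, q⟩ : ∃ E n, Elem 2 n E Q ∧ n ≤ 3 ∧ 𝐙 ≤ E ∧ ⁅a, u⁆ ∈ E := by
    by_cases p : ⁅a, u⁆ ∈ 𝐙
    exacts [⟨_, _, zq, by decide, le_rfl, p⟩, ⟨_, _, zq.sup_zpowers m.1 (fun v m' => bb0.1 (zB h m' m)) (sqv_eq_zero.1 a2) p, le_rfl, le_sup_left,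
      mem_sup_right (mem_zpowers _)⟩]
  have k : ∀ v ∈ 𝐁, ⁅a, v⁆ ∈ 𝐙 := fun v hv => h.centralizer_inf_le hQ fun w hw => (bb0.1 (ha.2 v hv w hw)).symm
  refine ⟨a, ha.1.2, fun n => a1 ⟨n, ha.1.1⟩, E, e.le, p (subset_closure (.inl rfl)), e.elem, e.card ▸ Nat.pow_le_pow_right two_pos l, fun v hv => ?_⟩
  by_cases r : v ∈ 𝐂[s]
  · exact p (k v ⟨hv, r⟩)
  rw [show ⁅a, v⁆ = ⁅a, u⁆ * (u * ⁅a, u⁻¹ * v⁆ * u⁻¹) by simp only [commutatorElement_def]; group]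
  exact mul_mem q (p (conj_mem_of_norm (h.le_normalizer le_rfl h.closure_le (mem_sup_left hu)) (k _ (h.inv_mul_mem hu hv u1 r))))

end

end Cfsg.Lib.Mas.W4
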